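import Cfsg.Agent.CIT.Main
import Cfsg.Agent.Gate.CIT

set_option autoImplicit false
open Cfsg Cfsg.Agent

theorem Cfsg.Agent.Cond.CIT.{u} : Gate.CIT.{u} := ⟨fun hG hC =>
  (Cfsg.Lib.CIT.citStrong.out hG hC).imp_left fun ⟨F, i1, i2, h, e⟩ => ⟨F, i1, i2,
    h.imp_right (Or.imp (fun ⟨n, hn⟩ => ⟨n, hn.2⟩) fun h => ⟨h.1, h.2.2⟩), e⟩⟩
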