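import Cfsg.Agent.CIT.Main

set_option autoImplicit false
open Cfsg Cfsg.Agent

theorem Cfsg.Agent.Cond.CNStrong.{u} : Gate.CNStrong.{u} := Cfsg.Lib.CIT.cnStrong
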