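import Cfsg.Agent.Gate.S0349
import Cfsg.Agent.Gate.S1175
import Cfsg.Agent.Gate.BenderCore
import Cfsg.Agent.Chev.BNPair
import Cfsg.Agent.CIT.Main
import Cfsg.Agent.Solv.CoprimeBasic

set_option autoImplicit false
open Cfsg Cfsg.Agent Cfsg.Lib Cfsg.Lib.Chev Cfsg.Lib.Local Cfsg.Lib.Trans Cfsg.Lib.Solv Subgroup

/-- S0349, conditional on the listed gates (universe list must stay the statement's own). -/
theorem Cfsg.Agent.Cond.S0349.{u} [Gate.S1175.{u}] [Gate.BenderCore.{u}] : Gate.S0349.{u} := ⟨by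
  intro G _ _ _ P hrank U hUB hUn hUnil hsplit _ hind hH
  obtain ⟨s, hs⟩ := Nat.card_eq_one_iff_exists.1 hrank
  have hsB := BN.S_not_mem_B P s.2
  have hBU : P.B ≤ normalizer (U : Set G) := (normal_subgroupOf_iff_le_normalizer hUB).1 hUn
  have hdec : ∀ g : G, g ∈ P.B ∨ ∃ u ∈ U, ∃ b ∈ P.B, g = u * s * b := fun g => by
    obtain ⟨w, hw⟩ := BN.exists_cell P g
    have : w = 1 ∨ w = BN.sg P s := by
      obtain ⟨ω, rfl⟩ := BN.exists_word' P w
      clear hw
      induction ω with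
      | nil => simp
      | cons i ω ih =>
        rw [List.map_cons, List.prod_cons, hs i]
        rcases ih with h | h <;> rw [h]
        · exact Or.inr (mul_one _)
        · exact Or.inl (BN.sg_sq P s)
    rcases this with rfl | rfl
    · exact Or.inl ((BN.mem_cell_one P).1 hw)
    · obtain ⟨b, hb, b', hb', rfl⟩ := (BN.mem_cell_mk P).1 hw
      obtain ⟨u, hu, h, hh, rfl⟩ := (Trans.mem_sup_of_le_normalizer (inf_le_left.trans hBU)).1 (hsplit.ge hb)
      have := P.conj_mem _ (inv_mem (P.subset s.2)) h hh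
      exact Or.inr ⟨u, hu, _, mul_mem this hb', by simp only [inv_inv]; group⟩
  have hB : P.B ≠ ⊤ := fun e => hsB (e ▸ mem_top _)
  have hreg : ∀ y ∈ U ⊓ centralizer (U : Set G), y ≠ 1 → ∀ g : G, g⁻¹ * y * g ∈ P.B → g ∈ P.B := by
    intro y hy hy1 g hg
    refine (hdec g).elim id ?_
    rintro ⟨u, hu, b, hb, rfl⟩
    have e : ∀ v ∈ U, ∀ c : G, (v * s * c)⁻¹ * y * (v * s * c) = c⁻¹ * ((s : G)⁻¹ * y * s) * c :=
      fun v hv c => by
      calc _ = c⁻¹ * ((s : G)⁻¹ * (v⁻¹ * (y * v)) * s) * c := by group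
        _ = _ := by rw [← hy.2 v hv]; group
    rw [e u hu] at hg
    have h1 : (s : G)⁻¹ * y * s ∈ P.B := by
      have := mul_mem (mul_mem hb hg) (inv_mem hb)
      rwa [show b * (b⁻¹ * ((s : G)⁻¹ * y * s) * b) * b⁻¹ = (s : G)⁻¹ * y * s by group] at this
    refine (hy1 (mem_bot.1 (Bender.normalCore_eq_bot_of_simple hB ▸ fun k => ?_))).elim
    rw [← inv_inv k, inv_inv k⁻¹]
    rcases hdec k⁻¹ with h | ⟨v, hv, c, hc, e'⟩
    · exact mul_mem (mul_mem (inv_mem h) (hUB hy.1)) h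
    · rw [e', e v hv]
      exact mul_mem (mul_mem (inv_mem hc) h1) hc
  have hev : 2 ∣ Nat.card U := by
    have h1 : MulAction.orbit U ((s : G) : G ⧸ P.B) = {((1 : G) : G ⧸ P.B)}ᶜ := by
      ext c
      obtain ⟨g, rfl⟩ := QuotientGroup.mk_surjective c
      rw [Set.mem_compl_singleton_iff, Bender.mk_ne_one_iff]
      constructor
      · rintro ⟨v, hv⟩ hg
        have : g⁻¹ * (v * s) ∈ P.B := Bender.smul_mk_eq_iff.1 hv
        exact hsB ((mul_mem_cancel_left (hUB v.2)).1 ((mul_mem_cancel_left (inv_mem hg)).1 this))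
      · intro hg
        obtain ⟨v, hv, c, hc, rfl⟩ := (hdec g).resolve_left hg
        exact ⟨⟨v, hv⟩, Bender.smul_mk_eq_iff.2 (by
          change (v * s * c)⁻¹ * (v * s) ∈ P.B
          rw [show (v * s * c)⁻¹ * (v * s) = c⁻¹ by group]; exact inv_mem hc)⟩
    have h2 := (MulAction.stabilizer U ((s : G) : G ⧸ P.B)).index_dvd_card
    rw [MulAction.index_stabilizer, h1, Set.ncard_compl, Set.ncard_singleton, ← index_eq_card] at h2
    exact (even_iff_two_dvd.1 (Nat.Odd.sub_odd hind odd_one)).trans h2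
  obtain ⟨t, ht, hto⟩ := (dvd_card_iff_exists_orderOf U).1 hev
  obtain ⟨z, hz, hzo, hzc⟩ := CIT.exists_central_prime hUnil ht hto
  have hzZ : z ∈ U ⊓ centralizer (U : Set G) :=
    ⟨hz, fun x hx => mem_centralizer_singleton_iff.1 (hzc hx)⟩
  have hz1 := SE.ne_one_of_orderOf_two hzo
  have hC : ∀ y ∈ U ⊓ centralizer (U : Set G), y ≠ 1 → centralizer ({y} : Set G) ≤ P.B :=
    fun y hy hy1 c hc => hreg y hy hy1 c (by
      rw [mul_assoc, ← mem_centralizer_singleton_iff.1 hc, inv_mul_cancel_left]; exact hUB hy.1)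
  have h2 : ∀ g : G, g * z * g⁻¹ ∈ P.B → g ∈ P.B := fun g hg =>
    inv_mem_iff.1 (hreg z hzZ hz1 g⁻¹ (by rwa [inv_inv]))
  obtain ⟨T, hT, hzT⟩ := exists_isSylowIn_ge (isPGroup_zpowers_of_orderOf_eq hzo) (zpowers_le.2 hz)
  obtain ⟨S, rfl⟩ := ((hT.trans hUB fun h => by
    rw [← hsplit, Coprime.relIndex_sup_of_le_normalizer (inf_le_left.trans hBU)] at h
    exact hH.not_two_dvd_nat (h.trans (relIndex_dvd_card _ _))).trans le_top
    (by rw [relIndex_top_right]; exact hind.not_two_dvd_nat)).exists_sylow_eq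
  obtain ⟨H, hSE⟩ := Gate.S1175.out P.B hB z hzo (hUB hz) ⟨S, hzT (mem_zpowers z), fun x hx =>
    mem_centralizer_singleton_iff.1 (hzc (hT.le hx))⟩ h2 fun g hc hne => by
      have hg := h2 g (hC z hzZ hz1 (mem_centralizer_singleton_iff.2 hc.symm))
      refine hC _ (mul_mem hzZ ⟨mem_normalizer_conj (hBU hg) hz,
        mem_normalizer_conj (CIT.norm_le_norm_cent U (hBU hg)) hzZ.2⟩) fun e => hne ?_
      rw [← inv_eq_of_mul_eq_one_right e, SE.inv_eq_of_orderOf_two hzo]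
  rcases ((Bender.core_of_gate G).simple (isStronglyEmbedded_iff_se.1 hSE)).1 with
    ⟨F, i1, i2, ⟨n, -, hn⟩, e⟩ | h | h
  · exact Or.inl ⟨F, i1, i2, ⟨n, hn⟩, e⟩
  · exact Or.inr (Or.inl (Bender.isSuzuki_of_isoSuzuki h))
  · exact Or.inr (Or.inr h)⟩
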