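import Cfsg.Agent.Gate.S0452
import Cfsg.Agent.Gate.S1660
import Cfsg.Agent.Spor.LyMain

set_option autoImplicit false
open Cfsg Cfsg.Agent

/-- S0452, conditional on the listed gates (universe list must stay the statement's own). -/
theorem Cfsg.Agent.Cond.S0452.{u} [Gate.S1660.{u}] : Gate.S0452.{u} := ⟨by
  intro G _ _ _ t ht hC
  obtain ⟨e⟩ := Gate.S1660.out t ht.1 hC
  exact ⟨inferInstance, (Nat.card_congr e.toEquiv).trans Lib.Spor.LyB.card_Ly⟩⟩
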