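import Cfsg.Agent.Gate.S0463
import Cfsg.Agent.Gate.HNStA
import Cfsg.Agent.Gate.HNStC
import Cfsg.Agent.HN.Up
import Cfsg.Agent.HN.Pres

set_option autoImplicit false
open Cfsg Cfsg.Agent Cfsg.Lib.HN

/-- S0463, conditional on the listed gates. -/
theorem Cfsg.Agent.Cond.S0463 [Gate.HNStA] [Gate.HNStC] : Gate.S0463 := ⟨by
  have hA := Gate.HNStA.out
  have hC := Gate.HNStC.out
  exact perm_pres hA (stB hA) hC⟩
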