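import Cfsg.Agent.Gate.S0465
import Cfsg.Agent.Gate.S1704
import Cfsg.Agent.Baby.Model

set_option autoImplicit false
open Cfsg Cfsg.Agent

theorem Cfsg.Lib.Baby.isB_range {G K : Type*} [Group G] [Group K] (h : IsB G) (f : G →* K) {x : G}
    (hf : f x ≠ 1) : IsB f.range := by
  obtain ⟨h1, h2⟩ := h
  have hi : Function.Injective f := by
    rw [← MonoidHom.ker_eq_bot_iff]
    exact (f.normal_ker.eq_bot_or_eq_top).resolve_right fun e =>
      hf (show _ ∈ f.ker from e ▸ Subgroup.mem_top _)
  exact ⟨(f.ofInjective hi).symm.isSimpleGroup,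
    (Nat.card_congr (f.ofInjective hi).symm.toEquiv).trans h2⟩

/-- S0465, conditional on the listed gates (universe list must stay the statement's own). -/
theorem Cfsg.Agent.Cond.S0465 [Gate.S1704] : Gate.S0465 := ⟨by
  obtain ⟨f, hf⟩ := Cfsg.Lib.Baby.exists_model
  exact ⟨ZMod 2, inferInstance, inferInstance, inferInstance, f.range,
    Cfsg.Lib.Baby.isB_range Gate.S1704.out f hf⟩⟩
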