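import Cfsg.Agent.Gate.S0491
import Cfsg.Agent.Ngrp.ThreePrimes

set_option autoImplicit false
open Cfsg Cfsg.Agent Cfsg.Lib.Ngrp

/-- S0491, conditional on the list of the minimal simple groups. -/
theorem Cfsg.Agent.Cond.S0491.{u} [Gate.S0488.{u}] : Gate.S0491.{u} := ⟨by
  intro G _ _ hG h3
  obtain ⟨H, N, hN, -, -, hS⟩ := exists_minimalSimple_section hG
  exact ⟨H, N, hN, minimalSimple_three_primes hS ((Finset.card_le_card (Nat.primeFactors_mono
    ((N.card_quotient_dvd_card).trans H.card_subgroup_dvd_card) Nat.card_pos.ne')).trans h3)⟩⟩
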