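import Cfsg.Agent.Gate.S1333
import Cfsg.Agent.KF.Bal

set_option autoImplicit false
open Cfsg Cfsg.Agent Cfsg.Lib Cfsg.Lib.Trans Cfsg.Lib.KF

/-- S1333, conditional on the Schreier property of the known simple groups. -/
theorem Cfsg.Agent.Cond.S1333.{u} [Gate.KGood.{u}] : Gate.S1333.{u} := ⟨by
  intro X _ _ hK p _ P hP
  exact pLayerOf_centralizer_le_pLayer (sch_of_comp hK).lBalQ hP⟩
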