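import Cfsg.Agent.Gate.S1334
import Cfsg.Agent.KF.Bal

set_option autoImplicit false
open Cfsg Cfsg.Agent Cfsg.Lib Cfsg.Lib.Trans Cfsg.Lib.KF Subgroup

/-- S1334, conditional on the Schreier property of the known simple groups. -/
theorem Cfsg.Agent.Cond.S1334.{u} [Gate.KGood.{u}] : Gate.S1334.{u} := ⟨by
  intro G _ _ p hp hK a b ha hb hab
  have k : ∀ x : G, orderOf x = p → Sch (centralizer ({x} : Set G)) := fun x hx => by
    rw [← centralizer_zpowers_eq]
    refine (sch_of_comp (hK _ (isPGroup_zpowers_of_orderOf hx) fun e => hp.out.ne_one ?_)).of_subnormalIn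
      (centralizer_subnormalIn_normalizer _)
    rw [← hx, zpowers_eq_bot.1 e, orderOf_one]
  exact (pLayerOf_inf_eq (k a ha) hb (mem_centralizer_singleton_iff.2 hab.symm)).trans
    ((congrArg _ (inf_comm _ _)).trans
      (pLayerOf_inf_eq (k b hb) ha (mem_centralizer_singleton_iff.2 hab)).symm)⟩
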