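import Cfsg.Agent.Gate.S1654
import Cfsg.Agent.Gate.S1660
import Cfsg.Agent.Spor.LyMain

set_option autoImplicit false
open Cfsg Cfsg.Agent

/-- S1654, conditional on the listed gates (universe list must stay the statement's own). -/
theorem Cfsg.Agent.Cond.S1654.{u} [Gate.S1660.{u}] : Gate.S1654.{u} := ⟨by
  intro G _ _ _ t ht hcov
  obtain ⟨e⟩ := Gate.S1660.out t ht hcov
  obtain ⟨σ, h⟩ := Lib.Spor.LyU.exists_sig Lib.Spor.LyP.sat
  exact ⟨σ.range.map e.symm.toMonoidHom, ZMod 5, inferInstance, inferInstance, ZMod.card 5,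
    ⟨((e.symm.subgroupMap _).symm.trans (Lib.Spor.LyB.rangeEquiv h).symm).trans
      (MulEquiv.subgroupCongr Lib.Spor.LyU.HH_eq)⟩⟩⟩
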