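import Cfsg.Agent.Gate.S1908
import Cfsg.Agent.Gate.S0205
import Cfsg.Agent.Solv.HallSeparable

set_option autoImplicit false
open Cfsg Cfsg.Agent Cfsg.Lib.Solv

/-- S1908, conditional on the odd order theorem. -/
theorem Cfsg.Agent.Cond.S1908.{u} [Gate.S0205.{u}] : Gate.S1908.{u} := ⟨by
  intro G _ _ π hsep
  have h : HallD π G := hallD_of_hasPiSeries_of_odd_solvable (fun A _ _ hA => Gate.S0205.out hA) G
    (isPiSeparable_iff.mp hsep)
  exact ⟨h.exists_isPiHall, fun K L hK hL => (h.exists_conj_eq hK hL).imp fun _ hg => hg.symm,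
    fun U hU => h.exists_isPiHall_ge hU⟩⟩
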