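import Cfsg.Agent.Gate.S1936
import Cfsg.Agent.Cor.PPrimeAb

set_option autoImplicit false
open Cfsg Cfsg.Agent

/-- S1936, conditional on the listed gates (universe list must stay the statement's own). -/
theorem Cfsg.Agent.Cond.S1936.{u} [Gate.WB.{u}] : Gate.S1936.{u} := ⟨by
  intro G _ _ p _ h
  exact Lib.Cor.PPrimeAb.isSolvable G h⟩
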