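import Cfsg.Agent.Gate.S2056
import Cfsg.Agent.Gate.S1701
import Cfsg.Agent.Gate.S1708
import Cfsg.Agent.HN.Mult

set_option autoImplicit false
open Cfsg Cfsg.Agent

/-- S2056, conditional on the listed gates (universe list must stay the statement's own). -/
theorem Cfsg.Agent.Cond.S2056 [Gate.S1701] [Gate.S1708] : Gate.S2056 := ⟨by
  have : Finite Spor.HN := Nat.finite_of_card_ne_zero (by rw [Gate.S1701.out.2]; norm_num)
  have h := Gate.S1708.out
  rw [MonoidHom.map_closure, Set.image_insert_eq, Set.image_insert_eq, Set.image_singleton] at h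
  obtain ⟨K, -, i, n⟩ := h
  exact Lib.HN.multiplier_one K i n⟩
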