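import Cfsg.Agent.Gate.S2924
import Cfsg.Agent.Sig2.Lsp

set_option autoImplicit false
open Cfsg Cfsg.Agent Cfsg.Lib Cfsg.Lib.Trans Cfsg.Lib.Sig2

/-- S2924, conditional on the listed gates. -/
theorem Cfsg.Agent.Cond.S2924.{u} [Gate.S0217.{u}] [Gate.S0205.{u}] : Gate.S2924.{u} := ⟨by
  intro G _ _ Y hY h8 hE hz
  obtain ⟨z, hzY, -, hz⟩ := hz
  have hEl : El Y := fun a ha => by rw [← pow_two]; exact hY.2 a ha
  rw [genFitting_eq_pCore_iff, ← Local.charP_iff] at hz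
  refine ⟨(complete ⟨hEl, h8⟩ fun a ha _ b hb hb1 => ?_).1, normalizer_le_normalizer_WW Y⟩
  exact th_inf_le (isPConstrained_centralizer (hEl b hb) (hEl z hzY) (hEl.comm hb hzY)
    (hE b hb hb1) hz) (hEl.le_centralizer hb ha) (El.zpowers (hEl a ha)).isPGroup⟩
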