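import Cfsg.Agent.Gate.S3245
import Cfsg.Agent.Bender.Main
import Cfsg.Agent.Local.Tight

set_option autoImplicit false
open Cfsg Cfsg.Agent Cfsg.Lib Cfsg.Lib.Local Cfsg.Lib.Bender

/-- S3245, conditional on the listed gates (universe list must stay the statement's own). -/
theorem Cfsg.Agent.Cond.S3245.{u} [Gate.S0205.{u}] [Gate.BenderCore.{u}] [Gate.S1136.{u, u}] :
    Gate.S3245.{u} := ⟨by
  intro G _ _ _ hG h1
  obtain ⟨S⟩ : Nonempty (Sylow 2 G) := inferInstance
  have hS : (S : Subgroup G) ≠ ⊥ := S.ne_bot_of_dvd_card (even_of_simple hG).two_dvd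
  obtain ⟨M, hM, hSM⟩ := exists_maximalTwoLocal ⟨(S : Subgroup G), S.isPGroup', hS, rfl⟩
  have hM1 : M ≠ ⊤ := by
    obtain ⟨T, hT, hT1, rfl⟩ := hM.1
    intro e
    rcases (Subgroup.normalizer_eq_top_iff.1 e).eq_bot_or_eq_top with h | h
    · exact hT1 h
    · subst h
      have := (hT.of_equiv Subgroup.topEquiv).isNilpotent
      exact hG ⟨⟨IsSimpleGroup.comm_iff_isSolvable.2 inferInstance⟩⟩
  have hSE : SE 2 M := SE.of_normalizers hM1 S hS fun A hA hA1 => by
    have hA2 := S.isPGroup'.to_le hA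
    obtain ⟨M', hM', hAM⟩ := exists_maximalTwoLocal ⟨A, hA2, hA1, rfl⟩
    exact eq_of_one_class h1 _ A hA2 hA1 le_rfl M' M hM' hM (Subgroup.le_normalizer.trans hAM)
      (hA.trans (Subgroup.le_normalizer.trans hSM)) ▸ hAM
  exact ((core_of_gate G).simple hSE).1.flat⟩
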