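import Cfsg.Agent.Gate.S3699
import Cfsg.Agent.Recog.CITGraph

set_option autoImplicit false
open Cfsg Cfsg.Agent Cfsg.Lib Cfsg.Lib.Recog

/-- S3699, conditional on the listed gates (universe list must stay the statement's own). -/
theorem Cfsg.Agent.Cond.S3699.{u, v} [Gate.CITStrong.{v}] : Gate.S3699.{u, v} := ⟨by
  intro F _ _ m hm hF G _ _ ⟨h1, h2⟩
  have p2 := Fact.mk Nat.prime_two
  let M := Chev.lieSzModel hm hF
  have h8 := M.eight_le_card
  have hc := Chev.SzModel.coprime_sq_add_one (τ := Chev.Tw.ofCard hF)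
  have o1 := Chev.SzModel.odd_sub_one (τ := Chev.Tw.ofCard hF)
  have o2 := Chev.SzModel.odd_sq_add_one (τ := Chev.Tw.ofCard hF)
  have spec : ∀ x : Cfsg.Lie.Sz F (2 ^ (m + 1)), orderOf x ∣ Fintype.card F ^ 2 ∨
      orderOf x ∣ Fintype.card F - 1 ∨ orderOf x ∣ Fintype.card F ^ 2 + 1 := fun x => by
    rcases M.trichotomy x with ⟨p, h⟩ | ⟨a, b, hab, h⟩ | h
    · exact Or.inl (M.card_Pat p ▸ Subgroup.orderOf_dvd_natCard _ h)
    · exact Or.inr (Or.inl (M.orderOf_dvd_of_mem_Hat hab h))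
    · exact Or.inr (Or.inr h.orderOf_dvd)
  have sq : ∀ r : ℕ, r.Prime → r ∣ Fintype.card F ^ 2 → r = 2 := fun r hr h => by
    rw [hF] at h
    exact (Nat.prime_dvd_prime_iff_eq hr p2.out).mp (hr.dvd_of_dvd_pow (hr.dvd_of_dvd_pow h))
  have n2 : ∀ r : ℕ, r.Prime → r ≠ 2 → ¬ ∃ y : G, orderOf y = 2 * r := fun r hr hr2 h => by
    obtain ⟨x, hx⟩ := (h2 2 r p2.out hr hr2.symm).mpr h
    rcases hx ▸ spec x with e | e | e
    · exact hr2 (sq r hr ((dvd_mul_left r 2).trans e))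
    · exact absurd (o1.of_dvd_nat ((dvd_mul_right 2 r).trans e)) (by decide)
    · exact absurd (o2.of_dvd_nat ((dvd_mul_right 2 r).trans e)) (by decide)
  have hcit := isCIT_of_graph n2
  rw [M.card_G] at h1
  have hs : ¬ Group.IsSolvable G := by
    obtain ⟨r, hr, dr⟩ := Nat.exists_prime_and_dvd (n := Fintype.card F - 1) (by omega)
    obtain ⟨s, hs, ds⟩ := Nat.exists_prime_and_dvd (n := Fintype.card F ^ 2 + 1) (by
      have : 0 < Fintype.card F ^ 2 := by positivity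
      omega)
    have r2 : r ≠ 2 := by rintro rfl; exact absurd (o1.of_dvd_nat dr) (by decide)
    have s2 : s ≠ 2 := by rintro rfl; exact absurd (o2.of_dvd_nat ds) (by decide)
    have rs : r ≠ s := by
      rintro rfl; exact hr.one_lt.ne' (Nat.eq_one_of_dvd_coprimes hc ds (dr.mul_left _))
    refine not_isSolvable_of_three p2.out hr hs r2.symm s2.symm rs ((h1 2 p2.out).mp ?_)
      ((h1 r hr).mp (dr.mul_left _)) ((h1 s hs).mp ((ds.mul_left _).mul_right _))
      (n2 r hr r2) (n2 s hs s2) fun h => ?_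
    · exact ((dvd_pow (Chev.Tw.two_dvd_card (Chev.Tw.ofCard hF)) two_ne_zero).mul_right _).mul_right _
    · obtain ⟨x, hx⟩ := (h2 r s hr hs rs).mpr h
      rcases hx ▸ spec x with e | e | e
      · exact r2 (sq r hr ((dvd_mul_right r s).trans e))
      · exact hs.one_lt.ne' (Nat.eq_one_of_dvd_coprimes hc ds
          (((dvd_mul_left s r).trans e).mul_left _))
      · exact hr.one_lt.ne' (Nat.eq_one_of_dvd_coprimes hc ((dvd_mul_right r s).trans e)
          (dr.mul_left _))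
  have h3 : ¬ 3 ∣ Nat.card (G ⧸ pCore 2 G) := by
    rw [dvd_card_quotient_iff Nat.prime_three (by norm_num), ← h1 3 Nat.prime_three, ← M.card_G]
    exact M.not_three_dvd_card
  rcases CITCor.quotient_cases hcit hs with ⟨K, _, _, -, ⟨e⟩⟩ |
    ⟨K, _, _, hK, ⟨e⟩⟩ | ⟨K, _, _, n, hn, hK, ⟨e⟩⟩ | ⟨S, _, hS, -, K, _, _, hK, ⟨e⟩⟩
  · exact absurd (Nat.card_congr e.toEquiv ▸ three_dvd_card_psl2 K) h3
  · rw [Nat.card_congr e.toEquiv, card_psl3_four hK] at h3
    exact absurd (by norm_num) h3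
  · have key : ∀ a b : ℕ, (∀ r : ℕ, r.Prime → r ≠ 2 →
        r ∣ (2 ^ a) ^ 2 * ((2 ^ a) ^ 2 + 1) * (2 ^ a - 1) →
        r ∣ (2 ^ b) ^ 2 * ((2 ^ b) ^ 2 + 1) * (2 ^ b - 1)) → 0 < a → 0 < b → a ≤ b := by
      intro a b h ha hb
      obtain ⟨r, hr, r2, -, hrd⟩ := exists_ppd (n := 2 * (2 * a)) (by omega) (by omega)
      have h4 := (hrd _).mpr dvd_rfl
      rw [← two_pow_sq_sub_one, hr.dvd_mul, hrd] at h4
      have h5 := h4.resolve_left fun h => by have := Nat.le_of_dvd (by omega) h; omega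
      rw [mul_comm 2 a, pow_mul] at h5
      have h6 := h r hr r2 ((h5.mul_left _).mul_right _)
      rw [← pow_mul, mul_assoc, dvd_two_pow_mul_iff hr r2, hr.dvd_mul, hrd, mul_comm b] at h6
      rcases h6 with h6 | h6
      · have := Nat.le_of_dvd (by omega) ((hrd _).mp (two_pow_sq_sub_one (2 * b) ▸ h6.mul_left _))
        omega
      · have := Nat.le_of_dvd hb h6
        omega
    have h4 := ((Chev.lieSzModel hn hK).ofEquiv e).card_G
    rw [hK] at h4
    rw [hF] at h1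
    have h5 := key _ _ (fun r hr r2 h => h4 ▸ (dvd_card_quotient_iff hr r2).mpr ((h1 r hr).mp h))
      (by omega) (by omega)
    have h6 := key _ _ (fun r hr r2 h => (h1 r hr).mpr ((dvd_card_quotient_iff hr r2).mp (h4 ▸ h)))
      (by omega) (by omega)
    obtain rfl : n = m := by omega
    obtain ⟨e'⟩ := nonempty_sz_equiv hm hK hF
    exact ⟨e.trans e'⟩
  · rw [← S.card_mul_index, Nat.card_congr e.toEquiv] at h3
    exact absurd ((three_dvd_card_psl2 K).mul_right _) h3⟩
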