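import Cfsg.Agent.Gate.S3823
import Cfsg.Agent.PG.Reduce
import Cfsg.Agent.PG.Main

set_option autoImplicit false
open Cfsg Cfsg.Agent

namespace Cfsg.Lib.PG

open Cfsg.Lib.Solv Cfsg.Lib.FT

/-- an odd component of a disconnected prime graph is a clique -/
theorem Comp.adj.{u} [Gate.PGO.{u}] {G : Type u} [Group G] [Finite G] {Δ : Set ℕ} {p q : ℕ}
    (h : Comp G Δ) (h1 : ¬ IsPiNum Δ (Nat.card G)) (hp : p ∈ Δ) (hq : q ∈ Δ) (hpq : p ≠ q) :
    Adj G p q := by
  by_cases hs : Group.IsSolvable G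
  · exact h.adj_of_sol hs h1 hp hq hpq
  have hk : IsPiSubgroup Δᶜ (QuotientGroup.mk' (piCore Δᶜ G)).ker := by
    rw [QuotientGroup.ker_mk']
    exact isPiNum_card_piCore _ G
  have h' := h.quot (QuotientGroup.mk'_surjective _) hk
  refine Adj.lift (QuotientGroup.mk'_surjective _) hk hp ?_
  rcases h'.sep.structure h.two (h.sep.quot_nonsol (isPiNum_card_piCore _ G) hs (h.sub p hp).1 hp
    (h.sub p hp).2) (piCore_quotient_piCore _ G) with ⟨K, -, k1, k2, k3, k4⟩ | ⟨M, m1, m2, m3, m4⟩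
  · exact (h'.isol (fun x hx hx1 => (k4 x hx hx1).le) k1 k2 (abelian_nil k3)).adj h' hp hq hpq
  · have h'' := h'.sub_normal m4
    refine Adj.of_injective M.subtype_injective ?_
    rcases isol_or_special m3 h'' with ⟨H, hH⟩ | ⟨P, U, Q, V, W₁, W₂, hS⟩
    · exact hH.adj h'' hp hq hpq
    · exact hS.adj hp hq hpq

end Cfsg.Lib.PG

open Cfsg.Lib.PG in
/-- S3823, conditional on the listed gates (universe list must stay the statement's own). -/
theorem Cfsg.Agent.Cond.S3823.{u} [Gate.PGO.{u}] : Gate.S3823.{u} := ⟨by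
  intro G _ _ r hr hrG h2 ⟨s, hs, hsG, hs'⟩ p q hp hq hpq
  exact ((comp_Comp hr hrG h2).adj (fun e => hs' (e s hs hsG)) hp hq hpq).2.2.2⟩
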