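import Cfsg.Agent.Gate.S3843
import Cfsg.Agent.Ngrp.Triples

set_option autoImplicit false
open Cfsg Cfsg.Agent Cfsg.Lib.Ngrp Cfsg.Lib.Solv Subgroup

/-- S3843, conditional on the list of the minimal simple groups. -/
theorem Cfsg.Agent.Cond.S3843.{u} [Gate.MinSimple.{u}] : Gate.S3843.{u} := ⟨by
  intro G _ _
  refine ⟨fun _ _ _ _ _ _ _ _ _ _ _ _ => inferInstance, fun h => ?_⟩
  by_contra hG
  obtain ⟨H, N, _, hN, -, hS⟩ := exists_minimalSimple_section hG
  obtain ⟨r, p, x, y, hr, hp, hrp, hx, hy, hxy, Q, g, hQ, hg, hxQ⟩ :=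
    borelTriple_of_isMinimalSimple hS
  have hy' : orderOf (g * y * g⁻¹) = p := ((MulAut.conj g).orderOf_eq y).trans hy
  have h1 : normalizer (Q : Set (H ⧸ N)) ≠ ⊤ := by
    intro e
    have := hS.1
    rcases (normalizer_eq_top_iff.1 e).eq_bot_or_eq_top with rfl | rfl
    · exact ne_one_of_orderOf_prime hp hy' (mem_bot.1 hg)
    · have := Fact.mk hp
      obtain ⟨k, hk⟩ := exists_orderOf_eq_pow_of_mem hQ (mem_top x)
      exact hrp ((Nat.prime_dvd_prime_iff_eq hr hp).1 (hr.dvd_of_dvd_pow (hx.symm.trans hk).dvd))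
  obtain ⟨a, rfl, i, ha⟩ := exists_lift_prime_pow _ (QuotientGroup.mk'_surjective N) hr
    (hx.trans (pow_one r).symm)
  obtain ⟨b, hb', j, hb⟩ := exists_lift_prime_pow _ (QuotientGroup.mk'_surjective N) hp
    (hy'.trans (pow_one p).symm)
  obtain ⟨c, rfl⟩ := QuotientGroup.mk'_surjective N g
  have h2 := (isSolvable_closure_section_iff hN a (c⁻¹ * b * c⁻¹⁻¹)).1
    (h r p hr hp hrp a b ⟨i, by rw [Subgroup.orderOf_coe, ha]⟩
      ⟨j, by rw [Subgroup.orderOf_coe, hb]⟩ ((isSolvable_closure_section_iff hN a b).2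
        (isSolvable_of_le ((closure_le _).2 (Set.pair_subset hxQ (le_normalizer (hb' ▸ hg))))
          (hS.2.2 _ h1))) (c⁻¹ : H))
  refine not_isSolvable_of_pair (b := y) (subset_closure (by simp)) (subset_closure (.inr ?_))
    (ne_one_of_orderOf_prime hr hx) ?_ (by rwa [hx, hy]) h2
  · rw [hx, hy]
    exact (Nat.coprime_primes hr hp).2 hrp
  · rw [map_mul, map_mul, hb', inv_inv, map_inv, Set.mem_singleton_iff]
    group⟩
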