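import Cfsg.Agent.Gate.S3856
import Cfsg.Agent.PG.Reduce
import Cfsg.Agent.S3857

set_option autoImplicit false
open Cfsg Cfsg.Agent

open Cfsg.Lib.PG Cfsg.Lib.Solv Cfsg.Lib.FT in
/-- S3856, conditional on the listed gates (universe list must stay the statement's own). -/
theorem Cfsg.Agent.Cond.S3856.{u} [Gate.PGO.{u}] : Gate.S3856.{u} := ⟨by
  intro G _ _ heven hdisc
  by_cases hs : Group.IsSolvable G
  · exact (S3857.result hs hdisc).imp_right Or.inl
  set R : ℕ → ℕ → Prop := fun a b : ℕ => a.Prime ∧ b.Prime ∧ a ≠ b ∧ a ∣ Nat.card G ∧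
    b ∣ Nat.card G ∧ ∃ g : G, orderOf g = a * b with hR
  set Δ : Set ℕ := {p | ¬ Relation.ReflTransGen R 2 p} with hΔ
  have h2 : 2 ∉ Δ := fun e => e Relation.ReflTransGen.refl
  have hsep : Lib.PG.Sep G Δ := by
    refine Lib.PG.Sep.of_adj (Δ := Δ) fun p q hp ha => ?_
    obtain ⟨a1, a2, a3, x, y, hx, hy, hc⟩ := ha
    intro hq
    exact hp (hq.tail ⟨a2, a1, a3.symm, hy ▸ orderOf_dvd_natCard y, hx ▸ orderOf_dvd_natCard x,
      Lib.Perm.GK.exists_orderOf_mul_of_commute a2 a1 a3.symm (hy ▸ dvd_rfl) (hx ▸ dvd_rfl) hc.symm⟩)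
  obtain ⟨r, hr, hrG, hrΔ⟩ : ∃ r, r.Prime ∧ r ∣ Nat.card G ∧ r ∈ Δ := by
    obtain ⟨A, ⟨a, haA, ha, haG⟩, ⟨b, hbA, hb, hbG⟩, h⟩ := hdisc
    have key : ∀ p, Relation.ReflTransGen R 2 p → (2 ∈ A ↔ p ∈ A) := fun p hp => by
      induction hp with
      | refl => rfl
      | tail _ h2 ih =>
        obtain ⟨c1, c2, -, c3, c4, c5⟩ := h2
        refine ih.trans ⟨fun e => ?_, fun e => ?_⟩
        · by_contra e'
          exact h _ e _ e' c1 c2 c3 c4 c5
        · by_contra e'
          exact h _ e _ e' c2 c1 c4 c3 (by rwa [mul_comm])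
    by_cases h2A : 2 ∈ A
    · exact ⟨b, hb, hbG, fun e => hbA ((key b e).1 h2A)⟩
    · exact ⟨a, ha, haG, fun e => h2A ((key a e).2 haA)⟩
  set N := piCore Δᶜ G with hN
  have hNπ : IsPiSubgroup Δᶜ N := isPiNum_card_piCore _ G
  have hf := QuotientGroup.mk'_surjective N
  have hk : IsPiSubgroup Δᶜ (QuotientGroup.mk' N).ker := by rwa [QuotientGroup.ker_mk']
  have hs' := hsep.quot_nonsol hNπ hs hr hrΔ hrG
  have hle : ∀ K : Subgroup (G ⧸ N), N ≤ K.comap (QuotientGroup.mk' N) := fun K a ha => by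
    rw [Subgroup.mem_comap, QuotientGroup.mk'_apply, (QuotientGroup.eq_one_iff a).2 ha]
    exact one_mem K
  rcases (hsep.quot hf hk).structure h2 hs' (piCore_quotient_piCore _ G) with
    ⟨K, k0, k1, k2, k3, k4⟩ | ⟨M, m1, m2, m3, m4⟩
  · have k5 : K ≠ ⊤ := fun e => hs' (sol_top_iff.1 (e ▸ abelian_sol k3))
    have k6 : ∀ x, x ∉ K → K ⊓ 𝐂₁ x = ⊥ := fun x hx => by
      by_contra e
      obtain ⟨y, hy, hy1⟩ := trivgPn.1 e
      exact hx (k4 y hy.1 hy1 ▸ cent1C.1 hy.2)
    have k7 : N < K.comap (QuotientGroup.mk' N) := by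
      refine lt_of_le_of_ne (hle K) fun e => k1 ?_
      rw [← Subgroup.map_comap_eq_self_of_surjective hf K, ← e, Subgroup.map_eq_bot_iff,
        QuotientGroup.ker_mk']
    by_cases hN1 : N = ⊥
    · left
      obtain ⟨C, -, hC, -⟩ := Fpf.exists_complement_of_fpf (N := K.comap (QuotientGroup.mk' N))
        (fun e => k7.ne' (by rw [e, hN1])) (fun e => k5 (by
          rw [← Subgroup.map_comap_eq_self_of_surjective hf K, e,
            Subgroup.map_top_of_surjective _ hf])) fun x hx => by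
        rw [eq_bot_iff, ← hN1]
        intro y hy
        have : QuotientGroup.mk' N y ∈ K ⊓ 𝐂₁ (QuotientGroup.mk' N x) :=
          ⟨hy.1, mem_cent1.2 (by rw [← map_mul, mem_cent1.1 hy.2, map_mul])⟩
        rw [k6 _ hx, Subgroup.mem_bot] at this
        exact (QuotientGroup.eq_one_iff y).1 this
      exact ⟨C, hC⟩
    · refine Or.inr (Or.inl ⟨N, K.comap (QuotientGroup.mk' N), inferInstance, inferInstance, k7,
        ?_, ?_⟩)
      · obtain ⟨C, -, hC⟩ := Fpf.exists_complement_of_fpf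
          (N := N.subgroupOf (K.comap (QuotientGroup.mk' N))) (Fpf.subgroupOf_ne_bot hN1 (hle K))
          (fun e => k7.not_ge (Subgroup.subgroupOf_eq_top.1 e)) fun x hx => by
          refine (hsep.compl.sub _).fpf (pgroup_of_card_dvd (card_subgroupOf_dvd _ _) hNπ)
            fun e => hx ((QuotientGroup.eq_one_iff (x : G)).1 (p_elt_eq_one (π := Δ)
              (mem_p_elt k2 x.2) fun r hr hd => e r hr ?_))
          rw [← Subgroup.orderOf_coe]
          exact hd.trans (orderOf_map_dvd (QuotientGroup.mk' N) _)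
        exact ⟨C, hC⟩
      · obtain ⟨C, -, hC⟩ := Fpf.exists_complement_of_fpf k1 k5 k6
        rw [Subgroup.map_comap_eq_self_of_surjective hf]
        exact ⟨C, hC⟩
  · have e : (M.comap (QuotientGroup.mk' N) ⧸ N.subgroupOf (M.comap (QuotientGroup.mk' N))) ≃* M :=
      (QuotientGroup.quotientMulEquivOfEq (by
        ext x
        rw [MonoidHom.mem_ker, Subgroup.mem_subgroupOf, ← QuotientGroup.eq_one_iff, Subtype.ext_iff]
        rfl)).trans
      (QuotientGroup.quotientKerEquivOfSurjective ((QuotientGroup.mk' N).subgroupComap M)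
        ((QuotientGroup.mk' N).subgroupComap_surjective_of_surjective M hf))
    refine Or.inr (Or.inr ⟨N, M.comap (QuotientGroup.mk' N), inferInstance, inferInstance, hle M,
      fun p hp hd => not_not.1 (hNπ p hp hd), fun p hp hd => not_not.1 (m4 p hp ?_),
      e.isSimpleGroup, fun hc => m3 ⟨⟨fun a b => ?_⟩⟩⟩)
    · rwa [← Subgroup.index_comap_of_surjective M hf]
    · obtain ⟨a, rfl⟩ := e.surjective a
      obtain ⟨b, rfl⟩ := e.surjective b
      rw [← map_mul, ← map_mul, hc.1.1]⟩
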