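import Cfsg.Agent.Gate.S3906
import Cfsg.Agent.Solv.ShumSolv

set_option autoImplicit false
open Cfsg Cfsg.Agent Subgroup Cfsg.Lib.Solv Cfsg.Lib.Solv.Act Cfsg.Lib.Solv.Lie

/-- S3906, conditional on the solvability theorem S0515. -/
theorem Cfsg.Agent.Cond.S3906 [Gate.S0515.{0}] : Gate.S3906 := ⟨by
  intro p k c d hp hk hd
  have := Fact.mk hp
  refine ⟨((c + 1) ^ Fintype.card (IdxD (Fin (2 ^ p ^ k)) d)) ^
    krek (((c + 1) ^ Fintype.card (IdxD (Fin (2 ^ p ^ k)) d)) ^ (d + c)) p, ?_⟩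
  intro G _ _ hG A hA hAk h
  have := hA.1
  have hAp : ∀ a : A, a ^ p = 1 := fun a => Subtype.ext (hA.2 a a.2)
  have hcop : (Nat.card A).Coprime (Nat.card G) := hAk ▸ hG.symm.pow_left k
  have h' : ∀ a : A, a ≠ 1 →
      (derivedSeries (fix A.subtype (zpowers a)) d).lowerCentralSeries c = ⊥ := fun a ha => by
    rw [fix_subtype_zpowers]
    exact h a a.2 fun h1 => ha (Subtype.ext h1)
  have hs := fun a ha => derivedSeries_eq_bot_of_le_of_lowerCentralSeries le_rfl (h' a ha)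
  have := isSolvable_of_fix A.subtype hAp (hAk ▸ Nat.pow_le_pow_right hp.pos hk) hG
    fun a ha => ⟨_, hs a ha⟩
  obtain ⟨e, he, he'⟩ := hAk ▸ exists_enum_cocyc (A := A)
  obtain ⟨X, h1, h2⟩ := exists_famD (φ := A.subtype) hcop he he' hp.pos hAp d
  refine h1.lowerCentralSeries_eq_bot hcop hAp hAk (m := 2 ^ d) hd
    (W := fun a => (derivedSeries (fix A.subtype (zpowers a)) d).map (Subgroup.subtype _))
    (fun a ha => ⟨?_, ?_, hs a ha⟩) fun i => (h2 i).imp fun B hB =>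
      ⟨hB.1, fun a ha => hB.2 _ (fix_anti (zpowers_le.2 ha))⟩
  · refine le_trans ?_ (map_mono (commutator_le_right ⊤ _))
    rw [Subgroup.map_commutator, ← MonoidHom.range_eq_map, range_subtype]
  · rw [← map_lowerCentralSeries, h' a ha, Subgroup.map_bot]⟩
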