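import Cfsg.Agent.Gate.S3907
import Cfsg.Agent.Solv.ShumSolv

set_option autoImplicit false
open Cfsg Cfsg.Agent Subgroup Cfsg.Lib.Solv Cfsg.Lib.Solv.Act Cfsg.Lib.Solv.Lie

/-- S3907, conditional on the solvability theorem S0515. -/
theorem Cfsg.Agent.Cond.S3907 [Gate.S0515.{0}] : Gate.S3907 := ⟨by
  intro p k c hp hk
  have := Fact.mk hp
  refine ⟨((c + 1) ^ Fintype.card (IdxG (Fin (2 ^ p ^ k)) (k - 3))) ^
    krek (((c + 1) ^ Fintype.card (IdxG (Fin (2 ^ p ^ k)) (k - 3))) ^ (k - 3 + c)) p, ?_⟩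
  intro G _ _ hG A hA hAk h
  have := hA.1
  have hAp : ∀ a : A, a ^ p = 1 := fun a => Subtype.ext (hA.2 a a.2)
  have hcop : (Nat.card A).Coprime (Nat.card G) := hAk ▸ hG.symm.pow_left k
  have h' : ∀ a : A, a ≠ 1 → ((⊤ : Subgroup (fix A.subtype (zpowers a))).lowerCentralSeries
      (k - 3)).lowerCentralSeries c = ⊥ := fun a ha => by
    rw [fix_subtype_zpowers]
    exact h a a.2 fun h1 => ha (Subtype.ext h1)
  have hs := fun a ha => derivedSeries_eq_bot_of_le_of_lowerCentralSeries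
    (Subgroup.derived_le_lower_central _) (h' a ha)
  have := isSolvable_of_fix A.subtype hAp (hAk ▸ Nat.pow_le_pow_right hp.pos hk) hG
    fun a ha => ⟨_, hs a ha⟩
  obtain ⟨e, he, he'⟩ := hAk ▸ exists_enum_cocyc (A := A)
  obtain ⟨X, h1, h2⟩ := exists_famG (φ := A.subtype) hcop he he' hp.pos hAp (k - 3)
  refine h1.lowerCentralSeries_eq_bot hcop hAp hAk (m := k - 3 + 1) (by omega)
    (W := fun a => (fix A.subtype (zpowers a)).lowerCentralSeries (k - 3))
    (fun a ha => ⟨?_, ?_, hs a ha⟩) fun i => (h2 i).imp fun B hB =>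
      ⟨hB.1, fun a ha => hB.2.trans (lowerCentralSeries_mono _ (fix_anti (zpowers_le.2 ha)))⟩
  · rw [commutator_comm]
    exact Subgroup.lowerCentralSeries_antitone _ (Nat.le_succ (k - 3))
  · have h3 := congrArg (Subgroup.map (Subgroup.subtype _)) (h' a ha)
    rwa [map_lowerCentralSeries, map_lowerCentralSeries, ← MonoidHom.range_eq_map, range_subtype,
      Subgroup.map_bot] at h3⟩
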