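import Cfsg.Agent.Gate.S3915
import Cfsg.Agent.Gate.S0205
import Cfsg.Agent.Trans.Component
import Cfsg.Agent.FT.Pi

set_option autoImplicit false
open Pointwise Cfsg Cfsg.Agent Cfsg.Lib.Solv Cfsg.Lib.FT Cfsg.Lib.Trans

namespace Cfsg.Agent.Cond.S3915h

universe u

variable {G : Type u} [Group G] [Finite G] {K L : Subgroup G}

theorem exists_two_elt [Gate.S0205.{u}] (hK : IsComponent K) :
    ∃ x ∈ K, (∃ n, orderOf x = 2 ^ n) ∧ x ∉ 𝐂 K := by
  have := Fact.mk Nat.prime_two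
  by_contra hc
  push Not at hc
  obtain ⟨S⟩ := (inferInstance : Nonempty (Sylow 2 K))
  have hS : (S : Subgroup K) ≤ Subgroup.center K := fun x hx => by
    obtain ⟨n, hn⟩ := IsPGroup.iff_orderOf.1 S.isPGroup' ⟨x, hx⟩
    rw [← Subgroup.orderOf_coe, ← Subgroup.orderOf_coe] at hn
    exact Subgroup.mem_center_iff.2 fun y => Subtype.ext (mem_cent.1 (hc x x.2 ⟨n, hn⟩) y y.2)
  have h1 : Odd (Nat.card (K ⧸ Subgroup.center K)) := by
    rw [← Nat.not_even_iff_odd, even_iff_two_dvd]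
    exact fun h => S.not_dvd_index (h.trans (Subgroup.index_dvd_of_le hS))
  exact IsComponent.not_le_of_isSolvable hK ((Group.isSolvable_iff_subgroup_quotient
    (Subgroup.center K)).2 ⟨abelian_sol inferInstance, Gate.S0205.out h1⟩) le_rfl

omit [Finite G] in
theorem exists_le {x z : G} {m : ℕ} (hx : x ∈ K) (hm : orderOf x = 2 ^ m) (hz : z ^ 2 ^ m = 1)
    (hP : ∀ A B : Subgroup G, IsCyclic A → IsCyclic B → IsPGroup 2 A → Nat.card A = Nat.card B →
      ∃ g : G, B = A.map (MulAut.conj g).toMonoidHom) : ∃ g : G, z ∈ g •ᶜ K := by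
  have := Fact.mk Nat.prime_two
  obtain ⟨c, hc⟩ := orderOf_dvd_of_pow_eq_one hz
  have hc0 : c ≠ 0 := by
    rintro rfl
    simp at hc
  have ho : orderOf (x ^ c) = orderOf z := by
    rw [orderOf_pow' x hc0, hm, Nat.gcd_eq_right ⟨_, hc.trans (mul_comm _ _)⟩, hc,
      Nat.mul_div_cancel _ (Nat.pos_of_ne_zero hc0)]
  obtain ⟨g, hg⟩ := hP (Subgroup.zpowers (x ^ c)) (Subgroup.zpowers z) inferInstance inferInstance
    (isPGroupS (Subgroup.zpowers_le.2 (Subgroup.npow_mem_zpowers x c))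
      (IsPGroup.of_card (by rw [Nat.card_zpowers, hm])))
    (by rw [Nat.card_zpowers, Nat.card_zpowers, ho])
  exact ⟨g, (conjSg g).2 (Subgroup.zpowers_le.2 (K.pow_mem hx c))
    (map_conj_eq_smul g _ ▸ hg ▸ Subgroup.mem_zpowers z)⟩

theorem unique [Gate.S0205.{u}] (hK : IsComponent K) (hL : IsComponent L)
    (hP : ∀ A B : Subgroup G, IsCyclic A → IsCyclic B → IsPGroup 2 A → Nat.card A = Nat.card B →
      ∃ g : G, B = A.map (MulAut.conj g).toMonoidHom) : K = L := by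
  by_contra hne
  obtain ⟨x, hx, ⟨m, hm⟩, hx'⟩ := exists_two_elt hK
  obtain ⟨y, hy, ⟨n, hn⟩, hy'⟩ := exists_two_elt hL
  have hKL : K ≤ 𝐂 L := commG1P.1 (IsComponent.commutator_eq_bot_of_ne hK hL hne)
  have hxy : Commute x y := (mem_cent.1 (hKL hx) y hy).symm
  obtain ⟨M, hM, hz⟩ : ∃ M, IsComponent M ∧ x * y ∈ M := by
    have h1 : ∀ k, m ≤ k → n ≤ k → (x * y) ^ 2 ^ k = 1 := fun k h1 h2 => by
      rw [hxy.mul_pow, orderOf_dvd_iff_pow_eq_one.1 (hm ▸ pow_dvd_pow 2 h1),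
        orderOf_dvd_iff_pow_eq_one.1 (hn ▸ pow_dvd_pow 2 h2), one_mul]
    rcases le_total m n with h | h
    · obtain ⟨g, hg⟩ := exists_le hy hn (h1 n h le_rfl) hP
      exact ⟨_, IsComponent.conj_smul hL g, hg⟩
    · obtain ⟨g, hg⟩ := exists_le hx hm (h1 m le_rfl h) hP
      exact ⟨_, IsComponent.conj_smul hK g, hg⟩
  by_cases h1 : M = K
  · have h2 : x * y ∈ 𝐂 L := hKL (h1 ▸ hz)
    exact hy' ((Subgroup.mul_mem_cancel_left _ (hKL hx)).1 h2)
  · have h2 := commG1P.1 (IsComponent.commutator_eq_bot_of_ne hM hK h1) hz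
    exact hx' ((Subgroup.mul_mem_cancel_right _ (centsC.1 hKL hy)).1 h2)

end Cfsg.Agent.Cond.S3915h

/-- S3915, conditional on the odd order theorem. -/
theorem Cfsg.Agent.Cond.S3915.{u} [Gate.S0205.{u}] : Gate.S3915.{u} := ⟨by
  intro G _ _ hP hE
  obtain ⟨K, hK⟩ := exists_isComponent_of_layer_ne_bot hE
  have e : layer G = K := le_antisymm
    (layer_le_iff.2 fun L hL => (S3915h.unique hL hK (hP 2 Nat.prime_two)).le)
    (IsComponent.le_layer hK)
  rw [e]
  refine ⟨hK.2.2, fun hc => IsComponent.not_le_of_isSolvable hK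
    ((Group.isSolvable_iff_subgroup_quotient (Subgroup.center K)).2 
      ⟨abelian_sol inferInstance, ?_⟩) le_rfl⟩
  exact Group.isSolvable_of_comm fun a b => hc.is_comm.comm a b⟩
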