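import Cfsg.Agent.Gate.S3921
import Cfsg.Agent.CITCor.SelfCent

set_option autoImplicit false
open Cfsg Cfsg.Agent

open Cfsg.Lib Cfsg.Lib.CITCor Cfsg.Lib.Known.GL2

/-- S3921, conditional on the listed gates. -/
theorem Cfsg.Agent.Cond.S3921.{u} [Gate.CITStrong.{u}] : Gate.S3921.{u} := ⟨by
  intro G _ _ _ hG
  constructor
  · intro h
    have h : SC G := h
    rcases Gate.CITStrong.out (exists_ne_comm_of_not hG)
      (h.isCIT (twoRank_of_nonabelian_simple hG)) with
      ⟨F, i1, i2, hF, ⟨e⟩⟩ | ⟨F, i1, i2, hF, ⟨e⟩⟩ | h4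
    · refine ⟨F, i1, i2, ?_, ⟨e⟩⟩
      rcases hF with hF | ⟨n, hn, hF⟩ | ⟨hp, -, k, hk⟩
      · exact Or.inr (Or.inl hF)
      · have h1 := (h.of_equiv e).card_le_four_psl2 (two_eq_zero_of_card (by omega) hF)
        have h2 : 2 ^ 2 ≤ 2 ^ n := Nat.pow_le_pow_right (by norm_num) hn
        exact Or.inl (by omega)
      · exact Or.inr (Or.inr ⟨hp, k, by omega⟩)
    · exact absurd (h.of_equiv e) (SC.not_psl3 hF)
    · exact absurd h4 h.not_isoSuzuki
  · rintro ⟨F, i1, i2, hF, ⟨e⟩⟩
    refine SC.of_equiv (sc_psl2 ?_ fun i h2 hi => ?_) e.symm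
    · rcases hF with hF | hF | hF
      · exact Or.inr ⟨2, Nat.prime_two, hF⟩
      · exact Or.inr ⟨3, Nat.prime_three, hF⟩
      · exact Or.inl hF.1
    · have h1 := card_centralizer_of_trace h2 hi
      have hk : ∀ k : ℕ, 2 ^ k % 4 = 2 → 2 ^ k = 2 := fun k hk => by
        rcases k with _ | _ | k
        · norm_num at hk
        · rfl
        · rw [pow_add, pow_add] at hk; omega
      rcases hF with hF | hF | ⟨hp, k, hF | hF⟩
      · omega
      · exact IsPGroup.of_card (n := 3) (by omega)
      · rcases h1 with h1 | h1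
        · exact IsPGroup.of_card (n := k) (by omega)
        · exact IsPGroup.of_card (n := 2) (by have := hk k (by omega); omega)
      · have := hp.two_le
        rcases h1 with h1 | h1
        · have := hk k (by omega)
          omega
        · exact IsPGroup.of_card (n := k) (by omega)⟩
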