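import Cfsg.Agent.Gate.S3936
import Cfsg.Agent.Ngrp.TwoVarLaw

set_option autoImplicit false
open Cfsg Cfsg.Agent Cfsg.Lib.Ngrp

/-- S3936, conditional on the list of the minimal simple groups. -/
theorem Cfsg.Agent.Cond.S3936.{u} [Gate.MinSimple.{u}] : Gate.S3936.{u} := ⟨by
  intro G _ _
  refine ⟨fun ⟨n, hn⟩ => ⟨n, fun x y => Subgroup.mem_bot.1 (hn ▸ bww_mem_derivedSeries x y n)⟩,
    fun ⟨n, hn⟩ => ?_⟩
  by_contra hG
  obtain ⟨x, y, h⟩ := bwwNe_of_not_isSolvable hG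
  exact h n (hn x y)⟩
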