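import Cfsg.Agent.Gate.S3940
import Cfsg.Agent.Ngrp.NonNil

set_option autoImplicit false
open Cfsg Cfsg.Agent Cfsg.Lib.Ngrp

/-- S3940, conditional on the list of the minimal simple groups. -/
theorem Cfsg.Agent.Cond.S3940.{u} [Gate.MinSimple.{u}] : Gate.S3940.{u} := ⟨by
  intro G _ _ p hp hp3 h
  by_contra hG
  obtain ⟨K, h1, h2⟩ := nonNil_of_not_isSolvable hG hp hp3
  exact h2 (h K h1)⟩
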