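import Cfsg.Agent.Gate.S3946
import Cfsg.Agent.Gate.S0108
import Cfsg.Agent.Solv.Hughes
import Mathlib.GroupTheory.SemidirectProduct

set_option autoImplicit false
open Cfsg Cfsg.Agent

/-- S3946, conditional on Thompson's normal complement theorem. -/
theorem Cfsg.Agent.Cond.S3946.{u} [Gate.S0108.{u}] : Gate.S3946.{u} := ⟨by
  intro G _ _ α hp hsplit
  let Γ := G ⋊[(Subgroup.zpowers α).subtype] (Subgroup.zpowers α)
  have : Finite Γ := Finite.of_equiv _ (SemidirectProduct.equivProd).symm
  let K : Subgroup Γ := (SemidirectProduct.inl : G →* Γ).range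
  have hKk : K = (SemidirectProduct.rightHom : Γ →* Subgroup.zpowers α).ker :=
    SemidirectProduct.range_inl_eq_ker_rightHom
  have hK : K.Normal := by rw [hKk]; infer_instance
  let a : Subgroup.zpowers α := ⟨α, Subgroup.mem_zpowers α⟩
  have ha : orderOf a = orderOf α := Subgroup.orderOf_mk _ _
  have hpow : ∀ (x : G) (n : ℕ), (⟨x, a⟩ : Γ) ^ n =
      ⟨((List.range n).map (fun i : ℕ => (α ^ i) x)).prod, a ^ n⟩ := by
    intro x n
    induction n with
    | zero => rfl
    | succ n ih =>
      rw [pow_succ, ih, List.range_succ, List.map_append, List.prod_append]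
      refine SemidirectProduct.ext ?_ ?_
      · simp [a]
      · exact (pow_succ a n).symm
  have h1 : ∀ g : Γ, SemidirectProduct.rightHom g = a → g ^ orderOf α = 1 := by
    rintro ⟨x, b⟩ h
    obtain rfl : b = a := h
    rw [hpow, hsplit, ← ha, pow_orderOf_eq_one]
    rfl
  have h := Cfsg.Lib.Solv.Hughes.isNilpotent hp (H := K) (by
    intro h
    have h2 : (SemidirectProduct.inr a : Γ) ∈ K := h ▸ Subgroup.mem_top _
    rw [hKk, MonoidHom.mem_ker, SemidirectProduct.rightHom_inr] at h2
    rw [h2, orderOf_one] at ha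
    exact hp.one_lt.ne ha) (by
    intro g hg
    rw [hKk, MonoidHom.mem_ker] at hg
    have := Fact.mk hp
    obtain ⟨j, hj⟩ := mem_powers_of_prime_card (Nat.card_zpowers α) (g' := a) hg
    have hb : (SemidirectProduct.rightHom g) ^ orderOf α = 1 := by
      rw [← Nat.card_zpowers]; exact pow_card_eq_one'
    have h2 := h1 (g ^ j) (by rw [map_pow]; exact hj)
    have h3 := h1 (g ^ (j + orderOf α)) (by rw [map_pow, pow_add, hb, mul_one]; exact hj)
    have h4 : (orderOf α).Coprime j := by
      rw [hp.coprime_iff_not_dvd]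
      rintro ⟨k, rfl⟩
      simp only [pow_mul, hb, one_pow] at hj
      rw [← hj, orderOf_one] at ha
      exact hp.one_lt.ne ha
    rw [← pow_mul, ← orderOf_dvd_iff_pow_eq_one] at h2 h3
    rw [← orderOf_dvd_iff_pow_eq_one]
    have h5 := Nat.dvd_gcd h3 h2
    rwa [Nat.gcd_mul_right, Nat.gcd_self_add_left, h4, one_mul] at h5)
  exact Group.nilpotent_of_mulEquiv (_h := h)
    (MonoidHom.ofInjective SemidirectProduct.inl_injective).symm⟩
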