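import Cfsg.Agent.Gate.S4008
import Cfsg.Agent.Gate.FPFCop
import Cfsg.Agent.P2.Cor

set_option autoImplicit false
open Cfsg Cfsg.Agent

/-- S4008, conditional on the listed gates (universe list must stay the statement's own). -/
theorem Cfsg.Agent.Cond.S4008.{u} [Gate.FPFCop.{u}] : Gate.S4008.{u} := ⟨by
  intro G _ _ hns _ r hr hodd hrG hno R _ hRs hRmax
  exact Cfsg.Lib.P2.s4008 (fun _ _ _ _ _ a b c => Gate.FPFCop.out a b c) hns r hr hodd hrG hno R
    hRs hRmax⟩
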