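import Cfsg.Agent.Gate.S4040
import Cfsg.Agent.Solv.NilpotentMaximal

set_option autoImplicit false
open Cfsg Cfsg.Agent Cfsg.Lib.Solv

/-- S4040, conditional on Thompson's normal `p`-complement theorem. -/
theorem Cfsg.Agent.Cond.S4040.{u} [Gate.S0108.{u}] : Gate.S4040.{u} := ⟨by
  intro G _ _ M hmax hnil hodd
  refine NilpMax.isSolvable hmax hnil ?_
  rintro a ha b hb c hc ⟨k, hk⟩ _ _
  have h1 : orderOf a ∣ Nat.card M := by
    rw [← Subgroup.orderOf_mk a ha]; exact orderOf_dvd_natCard _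
  have h2 : orderOf a = 1 := Nat.eq_one_of_dvd_coprimes
    (Nat.Coprime.pow_left k (Nat.coprime_two_left.2 hodd)) hk.dvd h1
  rw [orderOf_eq_one_iff.1 h2]
  simp⟩
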