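import Cfsg.Agent.Gate.S4073
import Cfsg.Agent.CITCor.SelfNorm

set_option autoImplicit false
open Cfsg Cfsg.Agent

open Cfsg.Lib Cfsg.Lib.CITCor Cfsg.Lib.Known.GL2

/-- S4073, conditional on the listed gates. -/
theorem Cfsg.Agent.Cond.S4073.{u} [Gate.BenderCore.{u}] [Gate.S1136.{u, u}] : Gate.S4073.{u} := ⟨by
  intro G _ _ _ hG
  constructor
  · intro h
    have h : SN G := h
    obtain ⟨n, hn, ⟨e⟩⟩ := ((h.abCent hG).isL2Even hG).exists_galois
    refine ⟨n, hn, ?_, ⟨e⟩⟩
    have : Fintype (GaloisField 2 n) := Fintype.ofFinite _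
    have hc : Fintype.card (GaloisField 2 n) = 2 ^ n := by
      rw [← Nat.card_eq_fintype_card, GaloisField.card 2 n (by omega)]
    have h2 : (2 : GaloisField 2 n) = 0 := two_eq_zero_of_card (by omega) hc
    have h4 : 2 ^ 2 ≤ 2 ^ n := Nat.pow_le_pow_right (by norm_num) hn
    let f := (equivPSL h2).trans e.symm
    exact hc ▸ (h.of_injective f.toMonoidHom f.injective).prime_sl2 h2 (by omega)
  · rintro ⟨n, hn, hp, ⟨e⟩⟩
    exact sn_of_equiv_psl2 (by rwa [GaloisField.card 2 n (by omega)]) e⟩
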