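import Cfsg.Agent.Gate.S4078
import Cfsg.Agent.Ngrp.Triples
import Cfsg.Agent.Solv.FrobeniusComplement
import Cfsg.Agent.Solv.CoprimeFixed

set_option autoImplicit false
open Cfsg Cfsg.Agent Cfsg.Lib.Ngrp Cfsg.Lib.Solv Subgroup

/-- S4078, conditional on the list of the minimal simple groups. -/
theorem Cfsg.Agent.Cond.S4078.{u} [Gate.MinSimple.{u}] : Gate.S4078.{u} := ⟨by
  intro G _ _
  refine ⟨fun _ x => ⟨⊤, Set.ext fun y => ⟨fun _ => (inferInstance : Group.IsSolvable _),
    fun _ => mem_top y⟩⟩, fun h => ?_⟩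
  by_contra hG
  obtain ⟨H, N, _, hN, -, hS⟩ := exists_minimalSimple_section hG
  obtain ⟨r, x, y, hr, hr2, hx, hy, hxy⟩ := involTriple_of_isMinimalSimple hS
  obtain ⟨b, rfl⟩ := QuotientGroup.mk'_surjective N y
  obtain ⟨K, hK⟩ := h b
  have hmem : ∀ w : H, (w : G) ∈ K ↔ Group.IsSolvable
      (closure ({QuotientGroup.mk' N b, QuotientGroup.mk' N w} : Set (H ⧸ N))) := fun w =>
    (Set.ext_iff.1 hK w).trans (isSolvable_closure_section_iff hN b w)
  set y := QuotientGroup.mk' N b with hyb
  have hy2 : y * y = 1 := by rw [← sq, ← hy, pow_orderOf_eq_one]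
  have hdih : ∀ t : H ⧸ N, t * t = 1 → Group.IsSolvable (closure ({y, t} : Set (H ⧸ N))) := by
    intro t ht
    have hn : zpowers y ≤ normalizer (zpowers (y * t) : Set (H ⧸ N)) := by
      rw [zpowers_le]
      have e : y * (y * t) * y⁻¹ = (y * t)⁻¹ := by
        rw [← mul_assoc, hy2, one_mul, mul_inv_rev, inv_eq_of_mul_eq_one_right ht]
      refine mem_normalizer_iff_map_conj_eq.2 ?_
      rw [MonoidHom.map_zpowers]
      change zpowers (y * (y * t) * y⁻¹) = _
      rw [e, zpowers_inv]
    refine isSolvable_of_le ((closure_le _).2 (Set.pair_subset ?_ ?_))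
      (Fpf.isSolvable_sup_of_le_normalizer hn (Coprime.isSolvable_zpowers _)
        (Coprime.isSolvable_zpowers _))
    · exact mem_sup_right (mem_zpowers y)
    · have : t = y⁻¹ * (y * t) := by group
      rw [SetLike.mem_coe, this]
      refine mul_mem (inv_mem (mem_sup_right (mem_zpowers y))) ?_
      rw [← this]
      exact mem_sup_left (mem_zpowers _)
  have htop : (K.subgroupOf H).map (QuotientGroup.mk' N) = ⊤ := by
    have := hS.1
    rw [eq_top_iff]
    rcases (normalClosure_normal (s := ({y} : Set (H ⧸ N)))).eq_bot_or_eq_top with e | e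
    · exact absurd (mem_bot.1 (e ▸ subset_normalClosure (Set.mem_singleton y)))
        (ne_one_of_orderOf_prime Nat.prime_two hy)
    · rw [← e, normalClosure, closure_le]
      intro t ht
      obtain ⟨a, ha, hc⟩ := Group.mem_conjugatesOfSet_iff.1 ht
      rw [Set.mem_singleton_iff] at ha
      subst ha
      obtain ⟨w, rfl⟩ := QuotientGroup.mk'_surjective N t
      refine ⟨w, (hmem w).2 (hdih _ ?_), rfl⟩
      obtain ⟨c, hc⟩ := isConj_iff.1 hc
      rw [← hc]
      calc c * y * c⁻¹ * (c * y * c⁻¹) = c * (y * y) * c⁻¹ := by group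
        _ = 1 := by rw [hy2]; group
  obtain ⟨w, hw, rfl⟩ := htop.ge (mem_top x)
  refine not_isSolvable_of_pair (b := y) (subset_closure (by simp)) (subset_closure (by simp))
    (ne_one_of_orderOf_prime hr hx) ?_ (by rwa [hx, hy]) ((hmem w).1 hw)
  rw [hx, hy]
  exact (Nat.coprime_primes hr Nat.prime_two).2 hr2⟩
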