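import Cfsg.Agent.Gate.S4103
import Cfsg.Agent.Ngrp.Triples

set_option autoImplicit false
open Cfsg Cfsg.Agent Cfsg.Lib.Ngrp Cfsg.Lib.Solv Subgroup

/-- S4103, conditional on the list of the minimal simple groups. -/
theorem Cfsg.Agent.Cond.S4103.{u} [Gate.MinSimple.{u}] : Gate.S4103.{u} := ⟨by
  intro G _ _
  refine ⟨fun _ x y _ _ => inferInstance, fun h => ?_⟩
  by_contra hG
  obtain ⟨H, N, _, hN, -, hS⟩ := exists_minimalSimple_section hG
  obtain ⟨r, x, y, hr, hr2, hx, hy, hxy⟩ := involTriple_of_isMinimalSimple hS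
  obtain ⟨a, rfl, i, ha⟩ := exists_lift_prime_pow _ (QuotientGroup.mk'_surjective N) hr
    (hx.trans (pow_one r).symm)
  obtain ⟨b, rfl, j, hb⟩ := exists_lift_prime_pow _ (QuotientGroup.mk'_surjective N) Nat.prime_two
    (hy.trans (pow_one 2).symm)
  have h1 := (isSolvable_closure_section_iff hN a (b * a * b⁻¹)).1
    (h a b ⟨r, i, hr, hr2, by rw [Subgroup.orderOf_coe, ha]⟩ ⟨j, by rw [Subgroup.orderOf_coe, hb]⟩)
  refine not_isSolvable_of_pair (subset_closure (by simp)) (mem_of_odd_mul (subset_closure (by simp))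
    (subset_closure (by simp)) (hy ▸ pow_orderOf_eq_one _) (Nat.Coprime.coprime_mul_left_right hxy))
    (ne_one_of_orderOf_prime hr hx) ?_ (by rwa [hx, hy]) h1
  rw [hx, hy]
  exact (Nat.coprime_primes hr Nat.prime_two).2 hr2⟩
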