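import Cfsg.Agent.Gate.S4119
import Cfsg.Agent.Solv.KhuAct

set_option autoImplicit false
open Cfsg Cfsg.Agent Cfsg.Lib.Solv Cfsg.Lib.Solv.KMS

/-- S4119, conditional on the listed gates (universe list must stay the statement's own). -/
theorem Cfsg.Agent.Cond.S4119.{u, v} [Gate.S4124.{max u v, max u v}] : Gate.S4119.{u, v} := ⟨by
  intro G A _ _ _ _ _ _ Fk Hc _ hHc hker hCF
  exact card_eq_fix
    (hyp_of (φ := MulDistribMulAction.toMulAut A G) hHc hker (Act.inv_top _) fun g _ => hCF g)⟩
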