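import Cfsg.Agent.Gate.S4121
import Cfsg.Agent.Solv.KhuAct

set_option autoImplicit false
open Cfsg Cfsg.Agent Cfsg.Lib.Solv Cfsg.Lib.Solv.KMS

/-- S4121, conditional on the listed gates (universe list must stay the statement's own). -/
theorem Cfsg.Agent.Cond.S4121.{u, v} [Gate.S4124.{max u v, max u v}] : Gate.S4121.{u, v} := ⟨by
  intro G A _ _ _ _ _ _ Fk Hc _ hHc hker N _ hNA hCNF g hg
  exact exists_lift (hyp_of (φ := MulDistribMulAction.toMulAut A G) hHc hker
    (fun a _ => hNA a) hCNF) (fun a _ => hNA a) hg⟩
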