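import Cfsg.Agent.Gate.S4123
import Cfsg.Agent.Solv.KhuAct

set_option autoImplicit false
open Cfsg Cfsg.Agent Cfsg.Lib.Solv Cfsg.Lib.Solv.KMS

/-- S4123, conditional on the listed gates (universe list must stay the statement's own). -/
theorem Cfsg.Agent.Cond.S4123.{u, v} [Gate.S4124.{max u v, max u v}] : Gate.S4123.{u, v} := ⟨by
  intro G A _ _ _ _ _ _ Fk Hc _ hHc hker hCF p _
  obtain ⟨P, h1, h2⟩ := existsUnique_sylow
    (hyp_of (φ := MulDistribMulAction.toMulAut A G) hHc hker (Act.inv_top _) fun g _ => hCF g)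
    (Fpf.of_coe_eq hHc hker).2.2.1.sup_eq_top p
  exact ⟨P, fun a => h1 a trivial, fun Q h => h2 Q fun a _ => h a⟩⟩
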