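import Cfsg.Agent.Gate.S4167
import Cfsg.Agent.Gate.S0205
import Cfsg.Agent.S0111
import Cfsg.Agent.Solv.ClassSize
import Cfsg.Agent.Solv.SylowDirect
import Cfsg.Agent.FT.Pi

set_option autoImplicit false
open Pointwise Cfsg Cfsg.Agent Cfsg.Lib.Solv Cfsg.Lib.FT

namespace Cfsg.Agent.Cond.S4167h

universe u

theorem simple_case {G : Type*} [Group G] [Finite G] [IsSimpleGroup G] (he : 2 ∣ Nat.card G)
    (h : ∀ x : G, ¬ 4 ∣ (𝐂₁ x).index) : Group.IsSolvable G := by
  have := Fact.mk Nat.prime_two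
  by_contra hs
  have hab : ¬ ∀ a b : G, a * b = b * a := fun e => hs (IsSimpleGroup.comm_iff_isSolvable.1 e)
  obtain ⟨t, ht⟩ := exists_prime_orderOf_dvd_card' 2 he
  have key : ∀ x : G, ∃ g : G, g * x * g⁻¹ ∈ 𝐂₁ t := by
    intro x
    obtain ⟨Q, hQ⟩ := Sylow_exists 2 (𝐂₁ x)
    obtain ⟨P', hP', hQP⟩ := Sylow_superset (le_top : Q ≤ ⊤) (Sylow_pgroup hQ)
    obtain ⟨P, rfl⟩ := exists_sylow_top hP'
    have hex : ∃ g : G, g * t * g⁻¹ ∈ Q := by
      obtain ⟨a, -, ha⟩ := Sylow_Jsub hP' (le_top : Subgroup.zpowers t ≤ ⊤)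
        (isPGroup_of_card_prime (by rw [Nat.card_zpowers, ht]))
      have ht' := conj_smul_le_iff.1 ha t (Subgroup.mem_zpowers t)
      by_cases hm : a * t * a⁻¹ ∈ Q
      · exact ⟨a, hm⟩
      have h2 : Q.relIndex P = 2 := by
        obtain ⟨k, hk⟩ := (P.isPGroup'.index (Q.subgroupOf P))
        have h4 : ¬ 4 ∣ Q.relIndex P := fun h4 => by
          have e1 := Subgroup.relIndex_mul_index hQP
          have e2 := Subgroup.relIndex_mul_index (pHall_sub hQ)
          have h5 : 4 ∣ Q.relIndex (𝐂₁ x) * (𝐂₁ x).index := by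
            rw [e2, ← e1]
            exact h4.mul_right _
          refine h x (Nat.Coprime.dvd_of_dvd_mul_left ?_ h5)
          exact Nat.Coprime.pow_left 2 ((Nat.Prime.coprime_iff_not_dvd Nat.prime_two).2
            (Sylow_index hQ))
        change Q.relIndex P = _ at hk
        rw [hk] at h4 ⊢
        rcases k with _ | _ | k
        · exact absurd (Subgroup.relIndex_eq_one.1 hk ht') hm
        · rfl
        · exact absurd ⟨2 ^ k, by ring⟩ h4
      rcases S0111.result P Q hQP h2 _ (by rw [orderJ, ht]) ht' hm with ⟨M, hM, hM2, -⟩ | ⟨g, hg⟩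
      · exfalso
        rcases hM.eq_bot_or_eq_top with rfl | rfl
        · rw [Subgroup.index_bot] at hM2
          have := isCyclic_of_prime_card hM2
          exact hab fun a b => IsCyclic.isMulCommutative.is_comm.comm a b
        · simp at hM2
      · exact ⟨g * a, by simpa [mul_assoc] using hg⟩
    obtain ⟨g, hg⟩ := hex
    refine ⟨g⁻¹, ?_⟩
    have := mem_cent1.1 (pHall_sub hQ hg)
    rw [mem_cent1]
    calc g⁻¹ * x * g⁻¹⁻¹ * t = g⁻¹ * (x * (g * t * g⁻¹)) * g := by group
      _ = g⁻¹ * (g * t * g⁻¹ * x) * g := by rw [this]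
      _ = _ := by group
  have hc := ClassSize.cent_eq_top_iff.1 (eq_top_of_forall_exists_conj_mem key)
  rcases (inferInstance : (Subgroup.center G).Normal).eq_bot_or_eq_top with e | e
  · rw [e, Subgroup.mem_bot] at hc
    rw [hc, orderOf_one] at ht
    omega
  · exact hab fun a b => Subgroup.mem_center_iff.1 (e ▸ Subgroup.mem_top b) a

theorem aux [Gate.S0205.{u}] (n : ℕ) : ∀ (G : Type u) [Group G] [Finite G], Nat.card G = n →
    (∀ x : G, ¬ 4 ∣ (𝐂₁ x).index) → Group.IsSolvable G := by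
  induction n using Nat.strong_induction_on with
  | _ n ih =>
  intro G _ _ hn h
  by_cases he : 2 ∣ Nat.card G
  swap
  · exact Gate.S0205.out (Nat.odd_iff.2 (by omega))
  by_cases hs : IsSimpleGroup G
  · exact simple_case he h
  rcases subsingleton_or_nontrivial G with _ | _
  · infer_instance
  obtain ⟨N, hN, h1, h2⟩ : ∃ N : Subgroup G, N.Normal ∧ N ≠ ⊥ ∧ N ≠ ⊤ := by
    by_contra hc
    push Not at hc
    exact hs ⟨fun N hN => or_iff_not_imp_left.2 (hc N hN)⟩
  refine (Group.isSolvable_iff_subgroup_quotient N).2 ⟨ih _ ?_ N rfl fun x hx => ?_,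
    ih _ ?_ (G ⧸ N) rfl fun x hx => ?_⟩
  · rw [← hn, ← Subgroup.card_top (G := G)]
    exact proper_card (lt_top_iff_ne_top.2 h2)
  · exact h x (hx.trans (ClassSize.index_cent_subtype_dvd_of_normal x))
  · rw [← hn, Subgroup.card_eq_card_quotient_mul_card_subgroup N]
    exact lt_mul_of_one_lt_right Nat.card_pos (cardG_gt1.2 h1)
  · obtain ⟨y, rfl⟩ := QuotientGroup.mk_surjective x
    exact h y (hx.trans (ClassSize.index_cent_mk_dvd N y))

end Cfsg.Agent.Cond.S4167h

/-- S4167, conditional on the odd order theorem. -/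
theorem Cfsg.Agent.Cond.S4167.{u} [Gate.S0205.{u}] : Gate.S4167.{u} :=
  ⟨fun {G} _ _ h => S4167h.aux _ G rfl h⟩
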