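import Cfsg.Agent.Gate.S4240
import Cfsg.Agent.Gate.S0205
import Cfsg.Agent.Inst.S0108
import Cfsg.Agent.Solv.ThompsonWrap
import Cfsg.Agent.Solv.NilpotentHall
import Cfsg.Agent.Solv.CoprimeHall
import Cfsg.Agent.Solv.ActionTransport
import Cfsg.Agent.FT.Img

set_option autoImplicit false
open Pointwise Cfsg Cfsg.Agent Cfsg.Lib.Solv Cfsg.Lib.FT

namespace Cfsg.Agent.Cond.S4240h

universe u

theorem solv [Gate.S0205.{u}] (n : ℕ) : ∀ (G : Type u) [Group G] [Finite G] (A K : Subgroup G),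
    Nat.card K = n → A ≤ 𝐍 K → (Nat.card A).Coprime (Nat.card K) →
    (∀ H, H < K → A ≤ 𝐍 H → Group.IsNilpotent H) → Group.IsSolvable K := by
  induction n using Nat.strong_induction_on with
  | _ n ih =>
  intro G _ _ A K hn hAK hcop h
  by_cases hN : ∃ N, N ⊲ K ∧ A ≤ 𝐍 N ∧ N ≠ ⊥ ∧ N ≠ K
  · obtain ⟨N, hNK, hAN, h1, h2⟩ := hN
    have hNL : N ⊲ K ⊔ A := ⟨hNK.le.trans le_sup_left, sup_le hNK.norm hAN⟩
    have := hNL.subgroupOf
    have hker : pre (qmk (K ⊔ A) N) ⊥ = N := ker_qmk hNL.le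
    refine solvable_of_img (f := qmk (K ⊔ A) N) le_sup_left ?_ (ih _ ?_ _ (img _ A) _ rfl
      (img_norms _ hAK) (coprime_img _ hcop) fun X hX hAX => ?_)
    · rw [hker]
      exact solvableS inf_le_right (nilpotent_sol (h N (lt_of_le_of_ne hNK.le h2) hAN))
    · rw [← hn, ← card_img_mul_of_ker_le (f := qmk (K ⊔ A) N) le_sup_left (hker.le.trans hNK.le),
        hker]
      exact lt_mul_of_one_lt_right (cardG_gt0 _) (cardG_gt1.2 h1)
    · have h3 := pre_lt_pre (img_le_self _ K) hX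
      rw [pre_img_qmk hNK.le le_sup_left] at h3
      have := nilpotent_img (qmk (K ⊔ A) N) (h _ h3 (norms_pre le_sup_right hAX))
      rwa [img_pre_qmk] at this
  push Not at hN
  by_cases h2 : IsPiSubgroup {2} K
  · have := Fact.mk Nat.prime_two
    exact pgroup_sol (pgroup_iff.1 h2)
  obtain ⟨p, hp, hpK, hp2⟩ : ∃ p, p.Prime ∧ p ∣ Nat.card K ∧ p ≠ 2 := by
    by_contra hc
    push Not at hc
    exact h2 fun p hp hd => hc p hp hd
  have := Fact.mk hp
  have hs : Group.IsSolvable A ∨ Group.IsSolvable K := by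
    by_cases he : Odd (Nat.card K)
    · exact Or.inr (Gate.S0205.out he)
    · exact Or.inl (Gate.S0205.out ((Nat.coprime_two_right).1
        (hcop.coprime_dvd_right (even_iff_two_dvd.1 (Nat.not_odd_iff_even.1 he)))))
  obtain ⟨P, hP⟩ := Coprime.exists_invariant_sylow hAK hcop hs p
  by_cases hK : IsPGroup p K
  · exact pgroup_sol hK
  have hc : HasNormalPComplement p K := by
    refine hasNormalPComplement_of_forall_invariant hp2 P fun W hW hW1 hinv => ?_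
    have hAW := hP.trans (normalizer_le_normalizer_of_invariant hinv)
    have hWK := hW.trans (Subgroup.map_subtype_le _)
    have := h (K ⊓ 𝐍 W) (lt_of_le_of_ne inf_le_left fun e => hK (hN W ⟨hWK, inf_eq_left.1 e⟩
      hAW hW1 ▸ isPGroupS hW (P.isPGroup'.map _))) (normsI hAK (norms_norm hAW))
    exact hasNormalPComplement_of_isNilpotent p
  have h3 := normal_p_compl_iff.1 hc
  by_cases h4 : piCoreOf ({p}ᶜ : Set ℕ) K = ⊥
  · rw [h4] at h3
    have := p'group_of_Hall_bot h3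
    rw [compl_compl] at this
    exact absurd (pgroup_iff.1 this) hK
  · have := hN _ (pcore_normal _ K) (norms_pcore _ hAK) h4
    exact absurd hpK ((p'groupE hp).1 (this ▸ pHall_pgroup h3))

variable {G : Type*} [Group G] [Finite G] {A K : Subgroup G}

theorem two_primes (hs : Group.IsSolvable K) (hAK : A ≤ 𝐍 K)
    (hcop : (Nat.card A).Coprime (Nat.card K)) (h : ∀ H, H < K → A ≤ 𝐍 H → Group.IsNilpotent H)
    (hK : ¬ Group.IsNilpotent K) :
    ∃ p q : ℕ, p.Prime ∧ q.Prime ∧ p ≠ q ∧ IsPiSubgroup {p, q} K := by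
  by_contra hc
  push Not at hc
  refine hK (nilpotent_of_Sylow_normal fun p hp _ => ?_)
  obtain ⟨P, hP, hAP⟩ := Coprime.exists_invariant_hall hAK hcop {p}
  refine ⟨P, hP, le_of_forall_Sylow_le fun q hq _ => ?_⟩
  by_cases e : q = p
  · subst e
    exact ⟨P, hP, normG P⟩
  obtain ⟨H, hH, hPH, hAH⟩ := Coprime.exists_le_invariant_hall (π := {p, q}) hAK hcop
    (pHall_sub hP) (sub_pgroup (by simp) (pHall_pgroup hP)) hAP
  have hn := h H (lt_of_le_of_ne (pHall_sub hH) fun e' =>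
    hc p q hp.out hq.out (Ne.symm e) (e' ▸ pHall_pgroup hH)) hAH
  obtain ⟨Q, hQ⟩ := Sylow_exists q H
  exact ⟨Q, subHall_Sylow hH (by simp) hQ, (pHall_sub hQ).trans
    (nilpotent_Hall_normal hn (pHall_subl hPH (pHall_sub hH) hP)).norm⟩

theorem normal_compl (hs : Group.IsSolvable K) (hAK : A ≤ 𝐍 K)
    (hcop : (Nat.card A).Coprime (Nat.card K)) (h : ∀ H, H < K → A ≤ 𝐍 H → Group.IsNilpotent H)
    (hK : K ≠ ⊥) : ∃ r : ℕ, r.Prime ∧ r ∣ Nat.card K ∧ ∃ R, IsPiHallOf {r}ᶜ R K ∧ K ≤ 𝐍 R := by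
  have hlt := sol_der1_proper hs hK
  obtain ⟨r, hr, hd⟩ := Nat.exists_prime_and_dvd
    (fun e => hlt.not_ge (Subgroup.relIndex_eq_one.1 e))
  obtain ⟨R, hR, hAR⟩ := Coprime.exists_invariant_hall hAK hcop {r}ᶜ
  have hM : ⁅K, K⁆ ⊔ R ≤ K := sup_le (der_sub K) (pHall_sub hR)
  have hne : ⁅K, K⁆ ⊔ R ≠ K := fun e => by
    have h1 := card_sup_mul_card_inf_of_le_normalizer
      ((pHall_sub hR).trans (der_normal K).norm)
    rw [e, ← card_mul_relIndex_of_le (der_sub K), mul_assoc] at h1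
    have h2 := Nat.eq_of_mul_eq_mul_left (cardG_gt0 _) h1
    exact (p'groupE hr).1 (pHall_pgroup hR) (h2 ▸ hd.mul_right _)
  have hn := h _ (lt_of_le_of_ne hM hne) (normsY (norms_der hAK) hAR)
  exact ⟨r, hr, hd.trans (Subgroup.relIndex_dvd_card _ _), R, hR,
    (sub_der1_norm le_sup_left hM).trans
      (nilpotent_Hall_norm hn (pHall_subl le_sup_right hM hR))⟩

theorem card_eq {n p q : ℕ} (hn : n ≠ 0) (hpq : p ≠ q)
    (h : ∀ r : ℕ, r.Prime → r ∣ n → r = p ∨ r = q) :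
    n = p ^ n.factorization p * q ^ n.factorization q := by
  conv_lhs => rw [← Nat.prod_factorization_pow_eq_self hn]
  rw [Finsupp.prod_of_support_subset _ (s := {p, q}) (fun r hr => by
    simpa using h r (Nat.prime_of_mem_primeFactors hr) (Nat.dvd_of_mem_primeFactors hr)) _
    (by simp), Finset.prod_pair hpq]

end Cfsg.Agent.Cond.S4240h

open Cfsg.Agent.Cond.S4240h Cfsg.Lib.Solv.Act in
/-- S4240, conditional on the odd order theorem. -/
theorem Cfsg.Agent.Cond.S4240.{u, v} [Gate.S0205.{v}] : Gate.S4240.{u, v} := ⟨by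
  intro A G _ _ _ _ _ hcop hmax hG
  let φ := MonoidHom.id (MulAut G)
  let B := (MulDistribMulAction.toMulAut A G).range
  have hinv : ∀ H : Subgroup G, Inv φ B H ↔ ∀ a : A, ∀ x ∈ H, a • x ∈ H := fun H =>
    ⟨fun h a x hx => h _ ⟨a, rfl⟩ x hx, by rintro h _ ⟨a, rfl⟩ x hx; exact h a x hx⟩
  have h1 : (Nat.card (R φ B)).Coprime (Nat.card (L φ ⊤)) := by
    rw [card_R, card_L_top]
    exact hcop.coprime_dvd_left (Subgroup.card_range_dvd _)
  have h2 := R_le_normalizer_L_top (φ := φ) B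
  have h3 : ∀ H, H < L φ ⊤ → R φ B ≤ 𝐍 H → Group.IsNilpotent H := by
    intro X hX hBX
    obtain ⟨H, -, rfl⟩ := exists_L_eq hX.le
    obtain ⟨M, hHM, hM⟩ := (Set.toFinite {M : Subgroup G | M ≠ ⊤ ∧
      ∀ a : A, ∀ x ∈ M, a • x ∈ M}).exists_le_maximal
      (a := H) ⟨(L_lt_L.1 hX).ne, (hinv H).1 (R_le_normalizer_L.1 hBX)⟩
    refine isNilpotent_L.2 (nilpotentS hHM (hmax M hM.prop.1 hM.prop.2 fun Y hY hY' => ?_))
    by_contra hne
    exact hY.not_ge (hM.le_of_ge ⟨hne, hY'⟩ hY.le)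
  have h4 : ¬ Group.IsNilpotent (L φ ⊤) := fun e =>
    hG (Group.nilpotent_of_mulEquiv (_h := isNilpotent_L.1 e) Subgroup.topEquiv)
  have h5 := solv _ _ _ _ rfl h2 h1 h3
  have hs : Group.IsSolvable G := by
    have := isSolvable_L.1 h5
    exact Group.isSolvable_of_surjective (f := (⊤ : Subgroup G).subtype)
      fun x => ⟨⟨x, trivial⟩, rfl⟩
  obtain ⟨p, q, hp, hq, hpq, hπ⟩ := two_primes h5 h2 h1 h3 h4
  obtain ⟨r, hr, hrd, X, hX, hXn⟩ := normal_compl h5 h2 h1 h3 fun e => h4 (e ▸ inferInstance)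
  obtain ⟨Y, -, rfl⟩ := exists_L_eq (pHall_sub hX)
  have key : ∀ p q : ℕ, p.Prime → q.Prime → p ≠ q → IsPiSubgroup {p, q} (L φ ⊤) →
      IsPiHallOf {p}ᶜ (L φ Y) (L φ ⊤) → ∃ (p : ℕ) (P : Sylow p G), p.Prime ∧ p ∣ Nat.card G ∧
        (P : Subgroup G).Normal ∧ ∀ a : A, ∀ x ∈ (P : Subgroup G), a • x ∈ (P : Subgroup G) := by
    intro p q hp hq hpq hπ hX
    have := Fact.mk hq
    have := Fact.mk hp
    have h6 : IsSylowOf q (L φ Y) (L φ ⊤) := eq_in_pHall (fun s hs hd => by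
      rcases hπ s hs hd with rfl | rfl
      · simpa using hpq
      · simpa using hpq.symm) hX
    have h7 : IsSylowOf q Y ⊤ := Sylow_of le_top (isPGroup_L.1 (Sylow_pgroup h6))
      (relIndex_L (φ := φ) Y ⊤ ▸ Sylow_index h6)
    obtain ⟨P, rfl⟩ := exists_sylow_top h7
    refine ⟨q, P, hq, ?_, normal_top_iff.1 ⟨le_top, L_le_normalizer_L.1 hXn⟩, (hinv _).1
      (R_le_normalizer_L.1 (normal_Hall_pcore h6 hXn ▸ norms_pcore _ h2))⟩
    by_contra hd
    refine h4 (pgroup_nil (p := p) (pgroup_iff.1 fun s hs hsd => ?_))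
    rcases hπ s hs hsd with rfl | rfl
    · rfl
    · exact absurd (card_L_top (φ := φ) ▸ hsd) hd
  refine ⟨hs, ⟨p, q, _, _, hp, hq, hpq, card_eq Nat.card_pos.ne' hpq fun s hs hd =>
    hπ s hs (card_L_top (φ := φ) ▸ hd)⟩, ?_⟩
  rcases hπ r hr hrd with rfl | rfl
  · exact key _ q hp hq hpq hπ hX
  · exact key _ p hq hp hpq.symm (Set.pair_comm p _ ▸ hπ) hX⟩
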