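import Cfsg.Agent.Gate.S4249
import Cfsg.Agent.Solv.Hughes

set_option autoImplicit false
open Cfsg Cfsg.Agent

/-- S4249, conditional on Thompson's normal `p`-complement theorem. -/
theorem Cfsg.Agent.Cond.S4249.{u} [Gate.S0108.{u}] : Gate.S4249.{u} := ⟨by
  intro G _ _ p hp hG hH
  have hn : (Subgroup.closure {g : G | g ^ p ≠ 1}).Normal := by
    refine ⟨fun n hn g => ?_⟩
    induction hn using Subgroup.closure_induction with
    | mem x hx =>
      refine Subgroup.subset_closure fun h => hx ?_
      rw [conj_pow, conj_eq_one_iff] at h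
      exact h
    | one => simp
    | mul x y _ _ hx hy =>
      rw [← conj_mul]
      exact Subgroup.mul_mem _ hx hy
    | inv x _ hx =>
      rw [← conj_inv]
      exact Subgroup.inv_mem _ hx
  have h : ∀ g : G, g ∉ Subgroup.closure {g : G | g ^ p ≠ 1} → g ^ p = 1 :=
    fun g hg => by_contra fun h => hg (Subgroup.subset_closure h)
  exact ⟨Cfsg.Lib.Solv.Hughes.isNilpotent hp hH h, Cfsg.Lib.Solv.Hughes.index_eq hp hH h hG⟩⟩
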