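import Cfsg.Agent.Gate.S4262
import Cfsg.Agent.Solv.NilpotentMaximal

set_option autoImplicit false
open Cfsg Cfsg.Agent Cfsg.Lib.Solv Cfsg.Lib.Solv.ClassSize

/-- S4262, conditional on Thompson's normal `p`-complement theorem. -/
theorem Cfsg.Agent.Cond.S4262.{u} [Gate.S0108.{u}] : Gate.S4262.{u} := ⟨by
  intro G _ _ h
  by_cases hex : ∃ (p k : ℕ) (x : G), p.Prime ∧ p ≠ 2 ∧ orderOf x = p ^ k ∧ x ∉ Subgroup.center G
  · obtain ⟨p, k, x, hp, hp2, hx, hxc⟩ := hex
    have hM := h x hxc
    have key : ∀ (q j : ℕ), q.Prime → q ≠ p → ∀ y ∈ Subgroup.centralizer ({x} : Set G),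
        orderOf y = q ^ j → ∀ z ∈ Subgroup.centralizer ({x} : Set G), Commute z y := by
      intro q j hq hqp y hy hyo z hz
      have h1 := cent_mul_of_coprime (mem_cent_iff_commute.1 hy).symm
        (by rw [hx, hyo]; exact Nat.coprime_pow_primes _ _ hp hq hqp.symm)
      have h2 : x * y ∉ Subgroup.center G := fun hc => hM.1 (by
        rw [← cent_eq_top_iff, h1] at hc
        exact top_le_iff.1 (hc.ge.trans inf_le_left))
      have h3 : Subgroup.centralizer ({x * y} : Set G) = Subgroup.centralizer ({x} : Set G) := by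
        by_contra hne
        exact hM.1 ((h _ h2).2 _ (lt_of_le_of_ne (h1.le.trans inf_le_left) hne))
      rw [← h3, h1] at hz
      exact mem_cent_iff_commute.1 hz.2
    refine NilpMax.isSolvable hM ?_ ?_
    · refine isNilpotent_of_forall_commute_of_prime_pow fun q r hq hr hqr i j a b ha hb => ?_
      rw [← Subgroup.orderOf_coe] at ha hb
      by_cases hqp : q = p
      · exact Subtype.ext (key r j hr (hqp ▸ hqr.symm) b b.2 hb a a.2).eq
      · exact Subtype.ext (key q i hq hqp a a.2 ha b b.2).symm.eq
    · rintro a ha b hb c hc ⟨i, hi⟩ _ _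
      rw [commutatorElement_eq_one_iff_commute.2
        (key 2 i Nat.prime_two hp2.symm a ha hi b hb).symm]
      exact Commute.one_left c
  · push Not at hex
    have : Group.IsNilpotent G := by
      refine isNilpotent_of_forall_commute_of_prime_pow fun q r hq hr hqr i j a b ha hb => ?_
      by_cases hq2 : q = 2
      · exact Subgroup.mem_center_iff.1 (hex r j b hr (hq2 ▸ hqr.symm) hb) a
      · exact (Subgroup.mem_center_iff.1 (hex q i a hq hq2 ha) b).symm
    infer_instance⟩
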