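import Cfsg.Agent.Gate.S4393
import Cfsg.Agent.Ngrp.PrimeTriple
import Cfsg.Agent.Solv.SylowProduct

set_option autoImplicit false
open Cfsg Cfsg.Agent Cfsg.Lib.Ngrp Cfsg.Lib.Solv

/-- S4393, conditional on the list of the minimal simple groups. -/
theorem Cfsg.Agent.Cond.S4393.{u} [Gate.MinSimple.{u}] : Gate.S4393.{u} := ⟨by
  intro G _ _ h
  by_contra hG
  obtain ⟨H, N, _, -, -, hm⟩ := exists_minimalSimple_section hG
  obtain ⟨r, s, t, a, b, hr, hs, ht, h1, h2, h3, ha, hb, hab⟩ := primeTriple_of_isMinimalSimple hm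
  obtain ⟨k, q, hp, hi, hc⟩ := exists_enum_primes (Nat.card G) Nat.card_pos.ne' hr hs ht h1 h2 h3
  have hcH := fun x hx (hxH : x ∣ Nat.card H) => hc x hx (hxH.trans H.card_subgroup_dvd_card)
  have k1 := ((sylProdSurj_iff_inj hp hi hc).1 (h _ _ hp hi hc)).subgroup H
  have k2 := ((sylProdSurj_iff_inj hp hi hcH).2 k1).of_surjective hp _
    (QuotientGroup.mk'_surjective N)
  have k3 := (sylProdSurj_iff_inj hp hi fun x hx hxN =>
    hcH x hx (hxN.trans N.card_quotient_dvd_card)).1 k2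
  have aux : ∀ {x : H ⧸ N} {n : ℕ}, orderOf x = n → IsPGroup n (Subgroup.zpowers x) :=
    fun hx => IsPGroup.of_card (n := 1) (by rw [Nat.card_zpowers, hx, pow_one])
  have k4 := k3.eq_one (s := Fin.cons a (Fin.cons b (Fin.cons (a * b)⁻¹ 1))) (by
    simp only [Fin.forall_fin_succ, Fin.cons_zero, Fin.cons_succ]
    refine ⟨aux ha, aux hb, aux ((orderOf_inv _).trans hab), fun i => ?_⟩
    change IsPGroup _ (Subgroup.zpowers (1 : H ⧸ N))
    rw [Subgroup.zpowers_one_eq_bot]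
    exact IsPGroup.of_bot) (by
    simp only [List.ofFn_succ, List.prod_cons, Fin.cons_zero, Fin.cons_succ]
    change a * (b * ((a * b)⁻¹ * (List.ofFn fun _ : Fin k => (1 : H ⧸ N)).prod)) = 1
    simp)
  exact ne_one_of_orderOf_prime hr ha (congrFun k4 0)⟩
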