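import Cfsg.Agent.Gate.S4745
import Cfsg.Agent.Gate.BenderCore
import Cfsg.Agent.Bender.TwoRank
import Cfsg.Agent.Block.InvSylow
import Cfsg.Agent.Block.RankOneChar
import Cfsg.Agent.Char.DegBasic
import Cfsg.Agent.Block.Part
import Cfsg.Agent.FT.Final

set_option autoImplicit false
open Cfsg Cfsg.Agent Cfsg.Lib Cfsg.Lib.Block.AbSig Subgroup MulAction

namespace Cfsg.Lib.Block.AbSig

variable {G Ω : Type*} [Group G] [Finite G] [MulAction G Ω] {p : ℕ} [hp : Fact p.Prime]

theorem sylow_transitive [IsPretransitive G Ω] {r : ℕ} (hΩ : Nat.card Ω = p ^ r) (P : Sylow p G)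
    (a b : Ω) : ∃ x ∈ (P : Subgroup G), x • a = b := by
  have : Finite Ω := Nat.finite_of_card_ne_zero (hΩ ▸ (pow_pos hp.out.pos r).ne')
  have h1 : (stabilizer G a).index = p ^ r := by rw [index_stabilizer_of_transitive, hΩ]
  have h2 : p ^ r ∣ (stabilizer G a).relIndex P := by
    refine Nat.Coprime.dvd_of_dvd_mul_right
      (Nat.Coprime.pow_left _ (hp.out.coprime_iff_not_dvd.2 P.not_dvd_index)) ?_
    rw [← inf_relIndex_right, relIndex_mul_index inf_le_right, ← h1]
    exact index_dvd_of_le inf_le_left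
  have h3 : (orbit (P : Subgroup G) a).ncard = (stabilizer G a).relIndex P := by
    rw [← index_stabilizer, relIndex]
    rfl
  have h4 : orbit (P : Subgroup G) a = Set.univ := by
    refine Set.eq_of_subset_of_ncard_le (Set.subset_univ _) ?_
    rw [Set.ncard_univ, hΩ, h3]
    exact Nat.le_of_dvd (Nat.pos_of_ne_zero index_ne_zero_of_finite) h2
  obtain ⟨x, hx⟩ : b ∈ orbit (P : Subgroup G) a := h4 ▸ Set.mem_univ b
  exact ⟨x, x.2, hx⟩

theorem eq_one_of_fix [FaithfulSMul G Ω] {P : Subgroup G} (htr : ∀ a b : Ω, ∃ x ∈ P, x • a = b)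
    (hab : ∀ a ∈ P, ∀ b ∈ P, a * b = b * a) {x : G} (hx : x ∈ P) {a : Ω} (h : x • a = a) :
    x = 1 := by
  refine FaithfulSMul.eq_of_smul_eq_smul (α := Ω) fun b => ?_
  obtain ⟨y, hy, rfl⟩ := htr a b
  rw [one_smul, smul_smul, hab x hx y hy, mul_smul, h]

end Cfsg.Lib.Block.AbSig

/-- S4745, conditional on the listed gates. -/
theorem Cfsg.Agent.Cond.S4745.{u, v} [Gate.BenderCore.{u}] : Gate.S4745.{u, v} := ⟨by
  intro G Ω _ _ _ _ _ htr p hp hp2 hpG h2G hC r hr hΩ
  rw [← Nat.card_eq_fintype_card] at hΩ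
  by_cases hno : ∃ χ : IrrCharacter G,
    (charDegree (χ : G → ℂ)).factorization p = (Nat.card G).factorization p
  · exact Or.inl hno
  right
  have hodd : Odd (p ^ r) := (hp.out.odd_of_ne_two hp2).pow
  obtain ⟨t, ht⟩ := exists_prime_orderOf_dvd_card' (G := G) 2 h2G
  obtain ⟨P, hP⟩ := exists_sylow_inverted_by hC hno ht
  have hab := comm_of_inverted hP
  have hcore : ∀ (N : Subgroup G) [N.Normal] (a : Ω), N ≤ stabilizer G a → N = ⊥ := by
    intro N _ a hN
    refine eq_bot_iff.2 fun x hx => FaithfulSMul.eq_of_smul_eq_smul (α := Ω) fun b => ?_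
    obtain ⟨g, rfl⟩ := exists_smul_eq G a b
    have : (g⁻¹ * x * g) • a = a := hN (Normal.conj_mem' inferInstance x hx g)
    rw [one_smul, ← mul_smul, show x * g = g * (g⁻¹ * x * g) by group, mul_smul, this]
  obtain ⟨a, ha⟩ : ∃ a : Ω, t • a = a := by
    have h1 : IsPGroup 2 (zpowers t) := IsPGroup.of_card ((Nat.card_zpowers t).trans
      (ht.trans (pow_one 2).symm))
    obtain ⟨a, ha⟩ := h1.nonempty_fixed_point_of_prime_not_dvd_card Ω (hΩ ▸ hodd.not_two_dvd_nat)
    exact ⟨a, ha ⟨t, mem_zpowers t⟩⟩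
  have hidx : (stabilizer G a).index = p ^ r := by rw [index_stabilizer_of_transitive, hΩ]
  have hpH : ¬ p ∣ Nat.card (stabilizer G a) := by
    intro h
    obtain ⟨x, hx⟩ := exists_prime_orderOf_dvd_card' (G := stabilizer G a) p h
    have hx' : orderOf (x : G) = p := by rw [Subgroup.orderOf_coe, hx]
    obtain ⟨S, hS⟩ := (IsPGroup.of_card ((Nat.card_zpowers (x : G)).trans
      (hx'.trans (pow_one p).symm))).exists_le_sylow
    obtain ⟨g, hg⟩ := exists_smul_eq G S P
    have hm : g * x * g⁻¹ ∈ (P : Subgroup G) := by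
      rw [← hg]
      exact smul_mem_pointwise_smul _ (MulAut.conj g) _ (hS (mem_zpowers _))
    have := eq_one_of_fix (sylow_transitive hΩ P) hab hm (a := g • a)
      (by rw [mul_smul, inv_smul_smul, mul_smul, x.2])
    rw [conj_eq_one_iff] at this
    exact hp.out.ne_one (by rw [← hx', this, orderOf_one])
  by_cases h2 : Chev.RankOne.TwoRank G
  · exfalso
    have hse : IsStronglyEmbedded (stabilizer G a) := by
      refine ⟨fun h => ?_, ?_, fun g hg => ?_⟩
      · rw [h, index_top] at hidx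
        exact (Nat.one_lt_pow (by omega) hp.out.one_lt).ne hidx
      · exact even_iff_two_dvd.2 (ht ▸ (stabilizer G a).orderOf_dvd_natCard ha)
      · by_contra hc
        rw [Nat.not_odd_iff_even, even_iff_two_dvd] at hc
        obtain ⟨⟨s, hs1, y, hy, hys⟩, hs⟩ := exists_prime_orderOf_dvd_card' 2 hc
        have hs' : orderOf s = 2 := by rw [← hs, ← Subgroup.orderOf_coe]
        obtain ⟨R, hR⟩ := exists_sylow_inverted_by hC hno hs'
        obtain ⟨x, hx, hxa⟩ := sylow_transitive hΩ R a (g • a)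
        have h3 : s • g • a = g • a := by
          have h4 : y • a = a := hy
          rw [← hys]
          show (g * y * g⁻¹) • g • a = _
          rw [mul_smul, inv_smul_smul, mul_smul, h4]
        have h5 : (x * x) • a = a := by
          have h6 : s⁻¹ • a = a := inv_mem (show s ∈ stabilizer G a from hs1)
          have h7 : x⁻¹ • a = x • a := by
            rw [← hR x hx, mul_smul, h6, mul_smul, hxa, h3]
          rw [mul_smul, ← h7, smul_inv_smul]
        have h8 := eq_one_of_fix (sylow_transitive hΩ R) (comm_of_inverted hR) (mul_mem hx hx) h5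
        obtain ⟨k, hk⟩ := IsPGroup.iff_orderOf.1 R.isPGroup' ⟨x, hx⟩
        have h9 := Chev.RankOne.eq_one_of_sq_of_odd (x := x) (by
          rw [← Subgroup.orderOf_coe] at hk
          exact hk ▸ (hp.out.odd_of_ne_two hp2).pow) h8
        rw [h9, one_smul] at hxa
        exact hg hxa.symm
    obtain ⟨s, Q, hS⟩ := Gate.BenderCore.out _ hse (hcore _ a (normalCore_le _)) h2
    obtain ⟨χ, hχ⟩ := Block.RankOneChar.exists_irr_card_dvd hS h2
    rw [stabilizer_quotient, hidx] at hχ
    refine hno ⟨χ, le_antisymm ?_ ?_⟩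
    · exact (Nat.factorization_le_iff_dvd (Block.irr_charDegree_pos χ).ne' Nat.card_pos.ne').2
        (Char.Deg.deg_dvd_card χ.2) p
    · rw [← (stabilizer G a).card_mul_index, hidx, Nat.factorization_mul Nat.card_pos.ne'
        (pow_pos hp.out.pos r).ne', Finsupp.add_apply, Nat.factorization_eq_zero_of_not_dvd hpH,
        zero_add, hp.out.factorization_pow, Finsupp.single_eq_same]
      exact (hp.out.pow_dvd_iff_le_factorization (Block.irr_charDegree_pos χ).ne').1 hχ
  have hCt : ¬ p ∣ Nat.card (centralizer ({t} : Set G)) := by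
    intro h
    obtain ⟨u, hu⟩ := exists_prime_orderOf_dvd_card' (G := centralizer ({t} : Set G)) p h
    have hu' : orderOf (u : G) = p := by rw [Subgroup.orderOf_coe, hu]
    refine (hC u (fun h => hp.out.ne_one (by rw [← hu', h, orderOf_one]))
      ⟨1, by rw [hu', pow_one]⟩).not_two_dvd_nat ?_
    rw [← ht]
    exact (centralizer {(u : G)}).orderOf_dvd_natCard
      (mem_centralizer_singleton_iff.2 (mem_centralizer_singleton_iff.1 u.2).symm)
  have hs : IsPSolvable p G := by
    have := FT.odd_order_solvable (Solv.odd_card_oddCore G)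
    have := IsPSolvable.sup_of_normal (N := oddCore G)
      (IsPSolvable.of_coprime (hp.out.coprime_iff_not_dvd.2 hCt).symm)
      (IsPSolvable.of_isSolvable p _)
    rw [sup_comm, Bender.oddCore_sup_centralizer h2 ht] at this
    exact this.of_equiv topEquiv
  refine ⟨hs, ?_⟩
  have hbot : pPrimeCore p G = ⊥ := by
    refine hcore _ a (le_sup_right.trans (relIndex_eq_one.1 (Nat.eq_one_of_dvd_coprimes
      (Nat.Coprime.pow_left r (hp.out.coprime_iff_not_dvd.2 ?_))
      (hidx ▸ relIndex_dvd_index_of_le (le_sup_left : stabilizer G a ≤ _ ⊔ pPrimeCore p G))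
      (relIndex_dvd_card _ _))))
    rw [← ((pPrimeCore p G).subgroupOf _).card_mul_index,
      Nat.card_congr (subgroupOfEquivOfLe le_sup_right).toEquiv]
    refine hp.out.not_dvd_mul (Solv.not_dvd_card_pPrimeCore p G) fun h => hpH (h.trans ?_)
    rw [← relIndex, relIndex_sup_right]
    exact relIndex_dvd_card _ _
  have hN : (P : Subgroup G).Normal := by
    rw [← normalizer_eq_top_iff, ← normalizer_sup_pPrimeCore hs P hab, hbot, sup_bot_eq]
  obtain ⟨z, hz⟩ := exists_prime_orderOf_dvd_card' (G := P) p (P.dvd_card_of_dvd_card hpG)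
  have hz' : orderOf (z : G) = p := by rw [Subgroup.orderOf_coe, hz]
  refine Block.exists_defect_zero_of_pairs (z : G)
    (hC z (fun h => hp.out.ne_one (by rw [← hz', h, orderOf_one]))
      ⟨1, by rw [hz', pow_one]⟩).not_two_dvd_nat fun g k hg hk ⟨n, hn⟩ => ?_
  obtain ⟨c, rfl⟩ := isConj_iff.1 hg
  obtain ⟨d, rfl⟩ := isConj_iff.1 hk
  obtain ⟨m, hm⟩ := IsPGroup.iff_orderOf.1 P.isPGroup'
    ⟨_, mul_mem (hN.conj_mem _ z.2 c) (inv_mem (hN.conj_mem _ z.2 d))⟩
  rw [← Subgroup.orderOf_coe, hn] at hm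
  rw [← mul_inv_eq_one, ← orderOf_eq_one_iff, hn]
  exact Nat.eq_one_of_dvd_coprimes (Nat.Coprime.pow n m
    ((Nat.coprime_primes Nat.prime_two hp.out).2 hp2.symm)) dvd_rfl (hm ▸ dvd_rfl)⟩
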