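import Cfsg.Agent.Gate.S4973
import Cfsg.Agent.Gate.S4972
import Cfsg.Agent.Known.TwFin

set_option autoImplicit false
open Cfsg Cfsg.Agent Cfsg.Lib.Known.TW

/-- S4973, conditional on the listed gates (universe list must stay the statement's own). -/
theorem Cfsg.Agent.Cond.S4973.{u} [h : Gate.S4972.{u}] : Gate.S4973.{u} := ⟨by
  intro F _ _ _ m hm
  obtain ⟨h1, h2⟩ := @h.out F _ _ _ (2 * m) (by omega)
  exact ⟨(allFS_Omega_plus hm (allFS_of_inv_mul h1)).inv_mul, fun a b hab =>
    (allFS_Omega_minus (by omega) hab (allFS_of_inv_mul (h2 a b hab))).inv_mul⟩⟩
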