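import Cfsg.Agent.Gate.S5222
import Cfsg.Agent.Fus.TateGate

set_option autoImplicit false
open Cfsg Cfsg.Agent Cfsg.Lib.Fus Cfsg.FusionSystem

/-- S5222, conditional on the listed gates (universe list must stay the statement's own). -/
theorem Cfsg.Agent.Cond.S5222.{u} [Gate.S5113.{u}] : Gate.S5222.{u} := ⟨by
  -- binders: Ω S p hS F hF hN Q h1 h2 (plus anonymous instances)
  intro Ω _ S _ p _ hS F hF hN Q h1 h2
  have hQ : Q ≤ S := h2.trans (Subgroup.map_subtype_le _)
  rw [Subgroup.map_subtype_commutator] at h1
  have hn : S ≤ Subgroup.normalizer (Q : Set Ω) := fun s hs =>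
    have := finite_of_le hQ
    mem_normalizer_of_finite fun y hy => by
      simpa [commutatorElement_def] using
        Q.mul_mem (h1 (Subgroup.commutator_mem_commutator hs (hQ hy))) hy
  have h3 := pNil_top_of_normSys ((isNil_normSys_iff hS hF (isFullyNormalized_top F)).2 hN)
  have h4 := normTop_saturated hS hF (hR := hQ) (h := hn)
  exact (isNil_normSys_iff hS hF (isFullyNormalized_of_le_normalizer hQ hn)).1
    (isNil_normTop_iff.1 (isNil_of_hyperfocal_le_frattini (pPowerExists_of_gate p) hS h4
      ((hyperfocal_le_of_pNil hS h4 (stronglyClosed_of_isNormal isNormal_normTop) h1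
        (h3.of_sub normTop_sub)).trans h2)))⟩
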