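import Cfsg.Agent.Gate.S5224
import Cfsg.Agent.Fus.TateGate

set_option autoImplicit false
open Cfsg Cfsg.Agent Cfsg.Lib.Fus Cfsg.FusionSystem

/-- S5224, conditional on the listed gates (universe list must stay the statement's own). -/
theorem Cfsg.Agent.Cond.S5224.{u} [Gate.S5113.{u}] : Gate.S5224.{u} := ⟨by
  -- binders: Ω S p hS F hF H hH hHF (plus anonymous instances)
  intro Ω _ S _ p _ hS F hF H hH hHF
  have key : (frattini ↥S).map S.subtype ⊔ F.focalSubgroup =
      (frattini ↥S).map S.subtype ⊔ H.focalSubgroup →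
      F.hyperfocalSubgroup p = H.hyperfocalSubgroup p := fun h =>
    (tate_fusion (pPowerExists_of_gate p) hS hF hH hHF
      ((hyperfocal_le_focal.trans le_sup_right).trans h.le)).symm
  have key' : F.hyperfocalSubgroup p = H.hyperfocalSubgroup p →
      F.focalSubgroup = H.focalSubgroup := fun h => by
    rw [focal_eq_hyperfocal_sup hS hF, focal_eq_hyperfocal_sup hS hH, h]
  exact ⟨⟨fun h => key' (key h), fun h => by rw [h]⟩, fun h => key (by rw [h]), key'⟩⟩
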