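import Cfsg.Agent.Gate.S5276
import Cfsg.Agent.Fus.TateGate

set_option autoImplicit false
open Cfsg Cfsg.Agent Cfsg.Lib.Fus Cfsg.FusionSystem

/-- S5276, conditional on the listed gates (universe list must stay the statement's own). -/
theorem Cfsg.Agent.Cond.S5276.{u} [Gate.S5113.{u}] : Gate.S5276.{u} := ⟨by
  -- binders: Ω S p hS F hF (plus anonymous instances)
  intro Ω _ S _ p _ hS F hF
  rw [← isNil_iff_hom_eq hS hF, ← isNil_normSys_iff hS hF (isFullyNormalized_top F)]
  refine ⟨fun h => ⟨h.of_sub normSys_sub, stronglyClosed_of_hyperfocal_le hS hF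
    (Subgroup.map_subtype_le _) (fun s hs => ?_) (hyperfocal_eq_bot_iff.2 h ▸ bot_le)⟩,
    fun ⟨h1, h2⟩ => isNil_of_hyperfocal_le_frattini (pPowerExists_of_gate p) hS hF
      (hyperfocal_le_of_pNil hS hF h2 (Cfsg.Lib.Solv.commutator_le_map_frattini hS)
        (pNil_top_of_normSys h1))⟩
  have := finite_of_le (Subgroup.map_subtype_le (frattini S))
  exact mem_normalizer_of_finite fun y hy => by
    simpa [commutatorElement_def] using Subgroup.mul_mem _
      (Cfsg.Lib.Solv.commutator_le_map_frattini hS (Subgroup.commutator_mem_commutator hs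
        (Subgroup.map_subtype_le _ hy))) hy⟩
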