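import Cfsg.Agent.Gate.S5528
import Cfsg.Agent.Gate.MonAm
import Cfsg.Agent.Mon.MStruct
import Cfsg.Agent.Mon.DegM

set_option autoImplicit false
open Cfsg Cfsg.Agent Cfsg.Lib.Mon

/-- S5528, conditional on the listed gates (universe list must stay the statement's own). -/
theorem Cfsg.Agent.Cond.S5528 [Gate.MonAm] : Gate.S5528 := ⟨by
  intro n ρ hρ
  obtain ⟨A, h⟩ := Gate.MonAm.out
  have := Dg.le_finrank A (((Matrix.toLinAlgEquiv' (R := ℂ) (n := Fin n)).toMonoidHom.comp
    (Units.coeHom _)).comp ρ) fun e => h.ι_ne_one (p := pZ) (by decide) (by decide) (hρ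
      (Units.ext (Matrix.toLinAlgEquiv'.injective (e.trans (by simp)))))
  rwa [Module.finrank_fin_fun] at this⟩
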