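import Cfsg.Agent.Gate.S5748
import Cfsg.Agent.CITCor.L2Even

set_option autoImplicit false
open Cfsg Cfsg.Agent

open Cfsg.Lib Cfsg.Lib.CITCor

/-- S5748, conditional on the listed gates. -/
theorem Cfsg.Agent.Cond.S5748.{u} [Gate.BenderCore.{u}] [Gate.S1136.{u, u}] : Gate.S5748.{u} := ⟨by
  intro G _ _ _ hG
  constructor
  · intro h
    have hA : AbCent G := fun t a b ht ha hb => by
      by_cases ha1 : a = 1
      · rw [ha1, one_mul, mul_one]
      by_cases hb1 : b = 1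
      · rw [hb1, one_mul, mul_one]
      exact h a t b ha1 (Local.SE.ne_one_of_orderOf_two ht) hb1 ha hb.symm
    obtain ⟨F, i1, i2, ⟨n, hn, hF⟩, e⟩ := hA.isL2Even hG
    exact ⟨F, i1, i2, n, hn, hF, e⟩
  · rintro ⟨F, i1, i2, n, hn, hF, e⟩ a b c _ hb _ hab hbc
    exact IsL2Even.comm_of_comm ⟨F, i1, i2, ⟨n, hn, hF⟩, e⟩ hb hab hbc.symm⟩
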