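import Cfsg.Agent.Gate.S5782
import Cfsg.Agent.Gate.Mit4
import Cfsg.Agent.Class.Four.L27

set_option autoImplicit false
open Cfsg Cfsg.Agent Cfsg.Geo Cfsg.Lib.Mit Cfsg.Lib.Class.Asch

/-- S5782, conditional on the classification of the quasisimple irreducible subgroups. -/
theorem Cfsg.Agent.Cond.S5782.{u} [Gate.Mit4.{u}] : Gate.S5782.{u} := ⟨by
  rintro F _ _ H hH ⟨P, hP, hQ, hA, hU⟩
  rcases Gate.Mit4.out P (QS.of_core hP) hP.no_subfield with rfl | ⟨σ, f, hf, e⟩ | h | h |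
    ⟨p, hp, hc, h⟩
  · exact absurd hP.le hH.1.not_ge
  · exact absurd ⟨σ, f, hf, fixesForm_iff.2 (e.le.trans inf_le_left)⟩ hU
  · exact absurd h hA
  · exact absurd h hQ
  have k : ∀ r : ℕ, r.Prime → p ≠ r → (r : F) ≠ 0 := fun r hr n e =>
    n ((Nat.prime_dvd_prime_iff_eq hp hr).1 ((CharP.cast_eq_zero_iff F p r).1 e))
  rcases h with ⟨e, h | h⟩ | ⟨e, h | h⟩ | h | ⟨e, h1, h2, h3, h | h⟩
  · exact ⟨P, p, hP, hp, h.1, .inl ⟨e, .inr h.2⟩⟩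
  · exact absurd h.2.2 hU
  · exact ⟨P, p, hP, hp, h.1, .inr ⟨e, h.2⟩⟩
  · exact absurd h.2.2 hU
  · exact absurd h.2.2.2 hU
  · exact (Cfsg.Lib.Four.w27L F H P hH (QS.of_core hP) hP.le hP.normal e h1 h2
      (k 2 Nat.prime_two h3) (k 7 Nat.prime_seven (by omega))).elim
  · exact absurd h.2.2 hU⟩
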