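import Cfsg.Agent.Gate.S5794
import Cfsg.Agent.Gate.Mit5
import Cfsg.Agent.Class.Five.L211

set_option autoImplicit false
open Cfsg Cfsg.Agent Cfsg.Geo Cfsg.Lib.Mit Cfsg.Lib.Class.Asch

/-- S5794, conditional on the classification of the quasisimple irreducible subgroups. -/
theorem Cfsg.Agent.Cond.S5794.{u} [Gate.Mit5.{u}] : Gate.S5794.{u} := ⟨by
  rintro F _ _ H hH ⟨P, hP, hQ, -, hU⟩
  rcases Gate.Mit5.out P (QS.of_core hP) hP.no_subfield with rfl | ⟨σ, f, hf, e⟩ | h |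
    ⟨p, hp, hc, h⟩
  · exact absurd hP.le hH.1.not_ge
  · exact absurd ⟨σ, f, hf, fixesForm_iff.2 (e.le.trans inf_le_left)⟩ hU
  · exact absurd h hQ
  rcases h with ⟨e, h | h⟩ | h | ⟨e, h | h⟩
  · refine ⟨P, p, hP, hp, h.1, Or.inl ⟨e, ?_, h.2⟩⟩
    rintro rfl
    exact Cfsg.Lib.Five.l211_not_maximal h.1 hH (QS.of_core hP) hP.le hP.normal e
  · exact absurd h.2.2 hU
  · exact ⟨P, p, hP, hp, h.2.2, Or.inr (Or.inl ⟨h.1, h.2.1⟩)⟩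
  · exact ⟨P, p, hP, hp, h.1, Or.inr (Or.inr ⟨e, h.2⟩)⟩
  · exact absurd h.2.2 hU⟩
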