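import Cfsg.Agent.Gate.S5797
import Cfsg.Agent.Gate.Mit5
import Cfsg.Agent.Class.AL.Proper

set_option autoImplicit false
open Cfsg Cfsg.Agent Cfsg.Geo Cfsg.Lib.Mit Cfsg.Lib.Class Cfsg.Lib.Class.Asch

/-- S5797, conditional on the classification of the quasisimple irreducible subgroups. -/
theorem Cfsg.Agent.Cond.S5797.{u} [Gate.Mit5.{u}] : Gate.S5797.{u} := ⟨by
  rintro F _ _ q hF H hH ⟨P, hP, hQ, -⟩
  have hf := isSesq_of_isUnitaryFormPow hF (isUnitaryFormPow_hermForm hF 5)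
  have hf' := hf.isUnitaryForm (frobqEquiv_ne_refl hF)
  have hPU : P ≤ isoms (hermForm 5 F q) := hP.le.trans (hH.1.le.trans inf_le_left)
  have hS := QS.of_core hP
  rcases Gate.Mit5.out P hS hP.no_subfield with rfl | ⟨σ, f, hf₁, e⟩ | h | ⟨p, hp, hc, h⟩
  · exact absurd (hPU.trans (isoms_le_similarityGroup _)) (AL.not_SL_le_unitary (by simp) hf')
  · obtain rfl : σ = frobqEquiv hF := RingEquiv.ext <| RingHom.congr_fun <| Form.eq_frobq
      (σ := (σ : F →+* F)) hF (fun h => hf₁.ne_refl (RingEquiv.ext (RingHom.congr_fun h)))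
      hf₁.involutive
    obtain ⟨c, hc⟩ := hf.exists_eq_mul_of_isoms hS.env_top hPU (isSesq_of_isUnitaryForm hf₁).pre
      (e.le.trans inf_le_left)
    refine absurd (le_trans (fun g hg => e.ge ⟨fun u v => ?_, hg.2⟩) hP.le) hH.1.not_ge
    exact (hc _ _).trans ((congrArg _ (hg.1 u v)).trans (hc u v).symm)
  · exact absurd h hQ
  have hq : q ≠ 1 := fun h => (Fintype.one_lt_card (α := F)).ne' (by rw [hF, h, one_pow])
  have h1 : Fintype.card F ≠ p := fun h =>
    Nat.not_prime_mul hq hq (by rwa [← sq, ← hF, h])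
  have h2 : Fintype.card F = p ^ 2 → q = p := fun h =>
    Nat.pow_left_injective two_ne_zero (hF.symm.trans h)
  rcases h with ⟨e, h | h⟩ | h | ⟨e, h | h⟩
  · exact absurd h.1 h1
  · obtain rfl := h2 h.1
    exact ⟨P, hP, hp, Or.inl ⟨e, h.2.1⟩⟩
  · exact absurd h.2.2 h1
  · exact absurd h.1 h1
  · obtain rfl := h2 h.1
    exact ⟨P, hP, hp, Or.inr ⟨e, h.2.1⟩⟩⟩
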